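import Cfsg.Agent.H6.Binary.Tools
import Cfsg.Agent.H6.Exist
import Cfsg.Agent.H6.GenNormalForm

/-!
# Binary coset actions of `PSL₂`: triangles of semisimple elements
-/

set_option autoImplicit false

open Matrix MatrixGroups

namespace Cfsg.Agent.H6.Bin

variable {F : Type*} [Field F] [Fintype F]

lemma tor_eq_of_cj {H : Subgroup PSL(2, F)} {g x : SL(2, F)} (hg : ¬ IsScal g) (hle : H ≤ tor g)
    {a : PSL(2, F)} (hx : π x ∈ cj a H) (hx1 : π x ≠ 1) : cj a H ≤ tor x := by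
  obtain ⟨d, rfl⟩ := π_surjective a
  have h1 : cj (π d) H ≤ tor (d * g * d⁻¹) :=
    (Subgroup.map_mono hle).trans (le_of_eq (map_conj_tor d g))
  rw [tor_eq_of_mem (fun h => hg (isScal_conj.1 h)) (h1 hx) hx1]
  exact h1

lemma not_isScal_of_noncomm {y z : SL(2, F)} (hne : y * z ≠ z * y) :
    ¬ IsScal y ∧ ¬ IsScal z ∧ ¬ IsScal (y * z) := by
  refine ⟨fun h => hne ?_, fun h => hne ?_, fun h => hne ?_⟩
  · rcases isScal_iff.1 h with rfl | rfl <;> simp
  · rcases isScal_iff.1 h with rfl | rfl <;> simp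
  · rcases isScal_iff.1 h with e | e
    · rw [e, eq_inv_of_mul_eq_one_left e, mul_inv_cancel]
    · have : z = y⁻¹ * (-1) := by rw [← e, inv_mul_cancel_left]
      rw [e, this]
      simp

/-- Three conjugates of a subgroup of a torus containing a non-commutative triangle. -/
lemma not_bin_of_triangle {H : Subgroup PSL(2, F)} {g : SL(2, F)} (hg : ¬ IsScal g)
    (hle : H ≤ tor g) (hb : IsBin H) {y z : SL(2, F)} (hne : y * z ≠ z * y) {a b c : PSL(2, F)}
    (hx : π (y * z) ∈ cj a H) (hy : π y ∈ cj b H) (hz : π z ∈ cj c H) : False := by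
  obtain ⟨hys, hzs, hxs⟩ := not_isScal_of_noncomm hne
  have n1 : ∀ {w : SL(2, F)}, ¬ IsScal w → π w ≠ 1 := fun h e => h (π_eq_one_iff_isScal.1 e)
  obtain ⟨u, hu, v, hv, he⟩ := hb.triple (x := π (y * z)) (y := π y) (z := π z) hx hy hz (map_mul π y z)
  have hu' := Subgroup.mem_inf.1 hu
  have hv' := Subgroup.mem_inf.1 hv
  have key : ∀ {w : SL(2, F)} {e : PSL(2, F)}, ¬ IsScal w → e ∈ tor (y * z) → e ∈ tor w → e ≠ 1 →
      (y * z) * w = w * (y * z) := by
    intro w e hw he1 he2 hne1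
    obtain ⟨e, rfl⟩ := π_surjective e
    have h := (tor_eq_of_mem hxs he1 hne1).symm.trans (tor_eq_of_mem hw he2 hne1)
    have := mem_tor.1 (h ▸ self_mem_tor w : π w ∈ tor (y * z))
    exact mem_cent.1 this
  have hu1 : u = 1 := by_contra fun h => by
    have := key hys (tor_eq_of_cj hg hle hx (n1 hxs) hu'.1) (tor_eq_of_cj hg hle hy (n1 hys) hu'.2) h
    rw [mul_assoc] at this
    exact hne (mul_left_cancel this).symm
  have hv1 : v = 1 := by_contra fun h => by
    have := key hzs (tor_eq_of_cj hg hle hx (n1 hxs) hv'.1) (tor_eq_of_cj hg hle hz (n1 hzs) hv'.2) h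
    rw [← mul_assoc z y z] at this
    exact hne (mul_right_cancel this)
  rw [hu1, hv1, one_mul] at he
  exact n1 hxs he


/-- Non-commuting pairs with prescribed traces. -/
lemma exists_triangle {s t u : F} (hs : s ^ 2 ≠ 4)
    (hk : s ^ 2 + t ^ 2 + u ^ 2 - s * t * u - 4 ≠ 0) :
    ∃ y z : SL(2, F), tr y = s ∧ tr z = t ∧ tr (y * z) = u ∧ y * z ≠ z * y := by
  have hD : (4 : F) - s ^ 2 ≠ 0 := fun h => hs (sub_eq_zero.1 h).symm
  set d₀ := (2 * t - s * u) / (4 - s ^ 2) with hd0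
  set c₀ := (s * t - 2 * u) / (4 - s ^ 2) with hc0
  obtain ⟨C, D, e⟩ := exists_rep (-1 : F) s (-1)
    (1 - (-d₀ ^ 2 + s * d₀ * c₀ - c₀ ^ 2 + t * d₀ - u * c₀))
    (by rintro ⟨h, -, -⟩; exact one_ne_zero (by linear_combination -h))
    (Or.inl fun h => hs (by linear_combination h))
  have e1 : -2 * d₀ + s * c₀ + t = 0 := by rw [hd0, hc0]; field_simp; ring
  have e2 : s * d₀ - 2 * c₀ - u = 0 := by rw [hd0, hc0]; field_simp; ring
  set c := C + c₀
  set d := D + d₀
  have hdet : (t - d) * d - (u + c - s * d) * c = 1 := by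
    linear_combination e + D * e1 + C * e2
  refine ⟨comp s, sl2 (t - d) (u + c - s * d) c d hdet, tr_comp s, by simp [tr], ?_, fun h => hk ?_⟩
  · simp [tr, sl2_mul, comp]
  · have h00 := congrArg (fun w : SL(2, F) => w 0 0) h
    have h01 := congrArg (fun w : SL(2, F) => w 0 1) h
    simp [sl2_mul, comp] at h00 h01
    grind

lemma exists_cj_of_tr {H : Subgroup PSL(2, F)} {h y : SL(2, F)} (hh : π h ∈ H)
    (hy : ¬ IsScal y) (ht : tr h ^ 2 ≠ 4) (he : tr y = tr h ∨ tr y = - tr h) :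
    ∃ c, π y ∈ cj c H := by
  have key : ∀ y : SL(2, F), ¬ IsScal y → tr y = tr h → ∃ c, π y ∈ cj c H := by
    intro y hy he
    obtain ⟨d, hd⟩ := isConj_iff.1 (isConj_of_tr_eq (not_isScal_of_ss ht) hy (Or.inl ht) he.symm)
    exact ⟨π d, ⟨π h, hh, by simp [← hd]⟩⟩
  rcases he with he | he
  · exact key y hy he
  · obtain ⟨c, hc⟩ := key (-y) (fun h' => hy (by
      rw [← π_eq_one_iff_isScal, π_neg] at h'
      exact π_eq_one_iff_isScal.1 h')) (by rw [tr_neg, he, neg_neg])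
    exact ⟨c, by rwa [π_neg] at hc⟩

/-- A subgroup of a torus with an element of trace other than `±2`, and not `±1` in characteristic
two, does not give a binary action. -/
lemma not_bin_ss {H : Subgroup PSL(2, F)} {g h : SL(2, F)} (hg : ¬ IsScal g) (hle : H ≤ tor g)
    (hh : π h ∈ H) (ht : tr h ^ 2 ≠ 4) (h3 : (2 : F) ≠ 0 ∨ tr h ≠ 1) : ¬ IsBin H := by
  intro hb
  set τ := tr h
  have hp : τ - 2 ≠ 0 := fun e => ht (by rw [sub_eq_zero.1 e]; norm_num)
  have hm : τ + 2 ≠ 0 := fun e => ht (by rw [eq_neg_of_add_eq_zero_left e]; norm_num)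
  obtain ⟨u, hu, hk⟩ : ∃ u, (u = τ ∨ u = -τ) ∧ τ ^ 2 + τ ^ 2 + u ^ 2 - τ * τ * u - 4 ≠ 0 := by
    by_cases h1 : τ + 1 = 0
    · refine ⟨-τ, Or.inr rfl, ?_⟩
      have h1' : τ - 1 ≠ 0 := fun e => by
        rcases h3 with h3 | h3
        · exact h3 (by linear_combination h1 - e)
        · exact h3 (sub_eq_zero.1 e)
      intro e
      have : (τ - 1) * ((τ + 2) * (τ + 2)) = 0 := by linear_combination e
      simp [h1', hm] at this
    · refine ⟨τ, Or.inl rfl, fun e => ?_⟩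
      have : (τ + 1) * ((τ - 2) * (τ - 2)) = 0 := by linear_combination -e
      simp [h1, hp] at this
  obtain ⟨y, z, hy, hz, hyz, hne⟩ := exists_triangle ht hk
  obtain ⟨n1, n2, n3⟩ := not_isScal_of_noncomm hne
  obtain ⟨a, ha⟩ := exists_cj_of_tr hh n3 ht (hu.imp (fun e => hyz.trans e) (fun e => hyz.trans e))
  obtain ⟨b, hb'⟩ := exists_cj_of_tr hh n1 ht (Or.inl hy)
  obtain ⟨c, hc⟩ := exists_cj_of_tr hh n2 ht (Or.inl hz)
  exact not_bin_of_triangle hg hle hb hne ha hb' hc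

/-- In characteristic two, split tori of order divisible by three. -/
lemma not_bin_split {H : Subgroup PSL(2, F)} {g h : SL(2, F)} (h2 : (2 : F) = 0) (hg : ¬ IsScal g)
    (hle : H ≤ tor g) (hh : π h ∈ H) (ht : tr h = 1) {w : F} (hw : w ^ 2 + w + 1 = 0) :
    ¬ IsBin H := by
  intro hb
  have hw0 : w ≠ 0 := fun e => by simp [e] at hw
  let Y : SL(2, F) := diagSL (Units.mk0 w hw0)
  let Z : SL(2, F) := up 1 * Y * (up 1)⁻¹
  have htY : tr Y = 1 := by
    simp [Y, tr_diagSL]; field_simp; linear_combination hw - w * h2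
  have htZ : tr Z = 1 := by rw [tr_conj, htY]
  have ht' : tr h ^ 2 ≠ 4 := by
    rw [ht]
    intro e
    exact one_ne_zero (α := F) (by linear_combination e + 2 * h2)
  have hne : Y * Z ≠ Z * Y := fun e => by
    have h01 := congrArg (fun W : SL(2, F) => W 0 1) e
    simp [Y, Z, sl2_mul, diagSL, up, sl2_inv_00, sl2_inv_01, sl2_inv_10, sl2_inv_11] at h01
    field_simp at h01
    grind
  have htYZ : tr (Y * Z) = 1 := by
    simp [Y, Z, tr, sl2_mul, diagSL, up, sl2_inv_00, sl2_inv_01, sl2_inv_10, sl2_inv_11]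
    field_simp
    grind
  obtain ⟨n1, n2, n3⟩ := not_isScal_of_noncomm hne
  obtain ⟨a, ha⟩ := exists_cj_of_tr hh n3 ht' (Or.inl (htYZ.trans ht.symm))
  obtain ⟨b, hb'⟩ := exists_cj_of_tr hh n1 ht' (Or.inl (htY.trans ht.symm))
  obtain ⟨c, hc⟩ := exists_cj_of_tr hh n2 ht' (Or.inl (htZ.trans ht.symm))
  exact not_bin_of_triangle hg hle hb hne ha hb' hc

end Cfsg.Agent.H6.Bin
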