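import Cfsg.Agent.H6.Binary.Basic
import Cfsg.Agent.H6.GenStructure

/-!
# Binary coset actions of `PSL₂`: subgroups of a Borel subgroup
-/

set_option autoImplicit false

open Matrix MatrixGroups

namespace Cfsg.Agent.H6.Bin

variable {F : Type*} [Field F] [Fintype F]

lemma anti_conj_up (c : Fˣ) (t : F) : anti c * up t * (anti c)⁻¹ = lo (-((c : F) ^ 2 * t)) := by
  have hc : (c : F) ≠ 0 := c.ne_zero
  rw [mul_inv_eq_iff_eq_mul]
  apply sl2_ext <;> simp [anti, up, lo, sl2_mul] <;> field_simp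

/-- The upper unitriangular group and one element outside the Borel subgroup generate. -/
lemma eq_top_of_up {M : Subgroup PSL(2, F)} (hU : ∀ a : F, π (up a) ∈ M) {g : SL(2, F)}
    (hg : π g ∈ M) (h10 : g 1 0 ≠ 0) : M = ⊤ := by
  set c := Units.mk0 _ h10
  have ha : π (anti c) ∈ M := by
    have e : anti c = up (-g 0 0 / g 1 0) * g * up (-g 1 1 / g 1 0) := by
      have d := sl2_det g
      apply sl2_ext <;> simp [anti, up, sl2_mul, c] <;> field_simp <;> grind
    rw [e, map_mul, map_mul]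
    exact mul_mem (mul_mem (hU _) hg) (hU _)
  have hlo : ∀ b : F, π (lo b) ∈ M := fun b => by
    have e : lo b = anti c * up (-b / (c : F) ^ 2) * (anti c)⁻¹ := by
      rw [anti_conj_up]
      congr 1
      have hc : (c : F) ≠ 0 := c.ne_zero
      field_simp
    rw [e, map_mul, map_mul, map_inv]
    exact mul_mem (mul_mem ha (hU _)) (inv_mem ha)
  have key : ∀ w : SL(2, F), w 1 0 ≠ 0 → π w ∈ M := fun w hw => by
    have e : w = up ((w 0 0 - 1) / w 1 0) * lo (w 1 0) * up ((w 1 1 - 1) / w 1 0) := by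
      have d := sl2_det w
      apply sl2_ext <;> simp [up, lo, sl2_mul] <;> field_simp <;> grind
    rw [e, map_mul, map_mul]
    exact mul_mem (mul_mem (hU _) (hlo _)) (hU _)
  refine eq_top_iff.2 fun x _ => ?_
  obtain ⟨w, rfl⟩ := π_surjective x
  by_cases hw : w 1 0 = 0
  · have h00 : w 0 0 ≠ 0 := fun e => by
      have d := sl2_det w
      simp [e, hw] at d
    have h := key (lo (-1) * w) (by simp [lo, sl2_mul, hw, h00])
    have := mul_mem (hlo 1) h
    rwa [← map_mul, ← mul_assoc, show lo (1 : F) * lo (-1) = 1 by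
      apply sl2_ext <;> simp [lo, sl2_mul], one_mul] at this
  · exact key w hw

/-- A proper subgroup containing the upper unitriangular group lies in the Borel subgroup. -/
lemma le_borel_of_Uinf_le {M : Subgroup PSL(2, F)} (hU : Uinf F ≤ M) (hM : M ≠ ⊤) :
    M ≤ borel F := fun x hx => by
  obtain ⟨g, rfl⟩ := π_surjective x
  exact mem_borel.2 (by_contra fun h => hM (eq_top_of_up (fun a => hU (mem_Uinf.2 ⟨a, rfl⟩)) hx h))

lemma upper_mem_iff {H : Subgroup PSL(2, F)} (hU : Uinf F ≤ H) {g : SL(2, F)} (h10 : g 1 0 = 0)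
    {m : Fˣ} (hm : (m : F) = g 0 0) : π g ∈ H ↔ π (diagSL m) ∈ H := by
  have e : g = diagSL m * up (g 0 1 / (m : F)) := by
    have d := sl2_det g
    have hm0 : (m : F) ≠ 0 := m.ne_zero
    apply sl2_ext <;> simp [diagSL, up, sl2_mul, h10, hm] <;> grind
  have hu : π (up (g 0 1 / (m : F))) ∈ H := hU (mem_Uinf.2 ⟨_, rfl⟩)
  conv_lhs => rw [e, map_mul]
  exact ⟨fun h => by simpa using mul_mem h (inv_mem hu), fun h => mul_mem h hu⟩

lemma exists_third (b ν ρ : F) (hb : 1 - b ≠ 0) (hρ : ρ ≠ 0) (h : ν - b = ρ * (1 - b)) :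
    ∃ g : SL(2, F), g 0 0 + g 0 1 * b = 1 ∧ g 1 0 + g 1 1 * b = b ∧
      g 0 0 + g 0 1 = ρ⁻¹ ∧ g 1 0 + g 1 1 = ν * ρ⁻¹ := by
  set k := (1 - b)⁻¹
  refine ⟨sl2 ((1 - b * ρ⁻¹) * k) ((ρ⁻¹ - 1) * k) (b * (1 - ν * ρ⁻¹) * k) ((ν * ρ⁻¹ - b) * k) ?_,
    ?_, ?_, ?_, ?_⟩
  all_goals simp [k]
  all_goals field_simp
  all_goals grind

/-- A subgroup strictly between the upper unitriangular group and the whole Borel-type part. -/
lemma not_bin_borel {H : Subgroup PSL(2, F)} (hU : Uinf F ≤ H) (hB : H ≤ borel F)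
    (hne : ¬ H ≤ Uinf F) : ¬ IsBin H := by
  intro hb
  obtain ⟨x, hxH, hxU⟩ := SetLike.not_le_iff_exists.1 hne
  obtain ⟨g₀, rfl⟩ := π_surjective x
  have h10 : g₀ 1 0 = 0 := mem_borel.1 (hB hxH)
  have hg00 : g₀ 0 0 ≠ 0 := fun e => by
    have d := sl2_det g₀
    simp [e, h10] at d
  set m := Units.mk0 _ hg00
  have hm : π (diagSL m) ∈ H := (upper_mem_iff hU h10 rfl).1 hxH
  have hm2 : (m : F) ^ 2 ≠ 1 := fun e => hxU (π_eq_up_of_chi h10 e)
  have hm0 : (m : F) ≠ 0 := m.ne_zero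
  have hm1 : (m : F) - 1 ≠ 0 := fun e => hm2 (by rw [sub_eq_zero.1 e, one_pow])
  have hmi : π (diagSL m⁻¹) ∈ H := by
    have e : diagSL m⁻¹ = (diagSL m)⁻¹ := eq_inv_of_mul_eq_one_left (by
      rw [← diagSL_mul, inv_mul_cancel]
      apply sl2_ext <;> simp [diagSL])
    rw [e, map_inv]; exact inv_mem hm
  set P : SL(2, F) → PSL(2, F) ⧸ H := fun g => ((π g : PSL(2, F)) : PSL(2, F) ⧸ H)
  have hP : ∀ (γ g j : SL(2, F)) (k : Fˣ), π (diagSL k) ∈ H →
      (γ * g) 0 0 = k * j 0 0 → (γ * g) 1 0 = k * j 1 0 → π γ • P g = P j := by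
    intro γ g j k hk e0 e1
    show π γ • ((π g : PSL(2, F)) : PSL(2, F) ⧸ H) = _
    rw [MulAction.Quotient.smul_coe, smul_eq_mul, ← map_mul, eq_comm, QuotientGroup.eq, ← map_inv,
      ← map_mul]
    refine (upper_mem_iff hU ?_ (m := k) ?_).2 hk
    · simp [sl2_mul, sl2_inv_10, sl2_inv_11] at e0 e1 ⊢; rw [e0, e1]; ring
    · have d := sl2_det j
      simp [sl2_mul, sl2_inv_00, sl2_inv_01] at e0 e1 ⊢; rw [e0, e1]
      linear_combination -(k : F) * d
  set ν : F := (m : F)⁻¹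
  set b : F := ((m : F) - ν) / ((m : F) - 1)
  have hν1 : ν ≠ 1 := fun e => hm2 (by rw [inv_eq_one.1 e, one_pow])
  have hb1 : 1 - b ≠ 0 := fun e => hν1 (by
    simp only [b] at e; field_simp at e; linear_combination e)
  have hb0 : b ≠ 0 := div_ne_zero (fun e => hm2 (by
    have : (m : F) = ν := sub_eq_zero.1 e
    rw [sq]; nth_rewrite 1 [this]; exact inv_mul_cancel₀ hm0)) hm1
  have hone : π (diagSL (1 : Fˣ)) ∈ H := by
    rw [show diagSL (1 : Fˣ) = (1 : SL(2, F)) by apply sl2_ext <;> simp [diagSL], map_one]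
    exact one_mem H
  -- the three maps
  have p03 : ∃ γ : PSL(2, F), γ • P 1 = P 1 ∧ γ • P (lo 1) = P (lo ν) :=
    ⟨π (up ((m : F) - 1)), hP _ _ _ 1 hone (by simp [up]) (by simp [up]),
      hP _ _ _ m hm (by simp [up, lo, sl2_mul]) (by simp [up, lo, sl2_mul, ν, hm0])⟩
  have p13 : ∃ γ : PSL(2, F), γ • P (anti 1) = P (anti 1) ∧ γ • P (lo 1) = P (lo ν) :=
    ⟨π (lo (ν - 1)), hP _ _ _ 1 hone (by simp [anti, lo, sl2_mul]) (by simp [anti, lo, sl2_mul]),
      hP _ _ _ 1 hone (by simp [lo, sl2_mul]) (by simp [lo, sl2_mul])⟩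
  have p23 : ∃ γ : PSL(2, F), γ • P (lo b) = P (lo b) ∧ γ • P (lo 1) = P (lo ν) := by
    obtain ⟨γ, e0, e1, e2, e3⟩ := exists_third b ν (m : F) hb1 hm0 (by
      simp only [b]; field_simp; ring)
    refine ⟨π γ, hP _ _ _ 1 hone ?_ ?_, hP _ _ _ m⁻¹ hmi ?_ ?_⟩
    · simpa [lo, sl2_mul] using e0
    · simpa [lo, sl2_mul] using e1
    · simpa [lo, sl2_mul] using e2
    · simpa [lo, sl2_mul, mul_comm] using e3
  obtain ⟨_, a1, a2⟩ := p03
  obtain ⟨_, c1, c2⟩ := p13
  obtain ⟨_, d1, d2⟩ := p23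
  obtain ⟨g, g0, g1, g2, g3⟩ := hb.four a1 a2 c1 c2 d1 d2
  obtain ⟨A, rfl⟩ := π_surjective g
  have hfix : ∀ w j : SL(2, F), π A • P w = P j → (j⁻¹ * A * w) 1 0 = 0 := by
    intro w j e
    have e' : P j = ((π A * π w : PSL(2, F)) : PSL(2, F) ⧸ H) := e.symm
    simp only [P] at e'
    rw [QuotientGroup.eq] at e'
    rw [← map_mul, ← map_inv, ← map_mul, ← mul_assoc] at e'
    exact mem_borel.1 (hB e')
  have h0 := hfix 1 1 g0
  have h1 := hfix _ _ g1
  have h2 := hfix _ _ g2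
  have h3 := hfix _ _ g3
  have dA := sl2_det A
  simp [sl2_mul, anti, lo, sl2_inv_00, sl2_inv_01, sl2_inv_10, sl2_inv_11] at h0 h1 h2 h3
  simp [h0, h1] at h2 h3 dA
  have : A 0 0 = A 1 1 := by grind
  exact hν1 (by grind)

/-- A subgroup of the Borel subgroup meeting the upper unitriangular group non-trivially in a proper
subgroup, in odd characteristic. -/
lemma not_bin_borel_odd {H : Subgroup PSL(2, F)} (h2 : (2 : F) ≠ 0) (hB : H ≤ borel F) {e : F}
    (he : π (up e) ∈ H) (he0 : e ≠ 0) (hproper : upSet H ≠ ⊤) : ¬ IsBin H := by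
  classical
  intro hb
  set E := upSet H
  have hcomm : ∀ g g' : SL(2, F), π g ∈ H → π g' ∈ H → g 0 0 ≠ g 1 1 → g' 0 0 ≠ g' 1 1 →
      g 0 1 / (g 1 1 - g 0 0) - g' 0 1 / (g' 1 1 - g' 0 0) ∈ E := by
    intro g g' hg hg' hn hn'
    have h10 : g 1 0 = 0 := mem_borel.1 (hB hg)
    have h10' : g' 1 0 = 0 := mem_borel.1 (hB hg')
    have d := sl2_det g
    have d' := sl2_det g'
    rw [h10, mul_zero, sub_zero] at d
    rw [h10', mul_zero, sub_zero] at d'
    set R := g 0 1 / (g 1 1 - g 0 0)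
    set R' := g' 0 1 / (g' 1 1 - g' 0 0)
    have hR : g 0 1 = R * (g 1 1 - g 0 0) := (div_mul_cancel₀ _ (sub_ne_zero.2 (Ne.symm hn))).symm
    have hR' : g' 0 1 = R' * (g' 1 1 - g' 0 0) :=
      (div_mul_cancel₀ _ (sub_ne_zero.2 (Ne.symm hn'))).symm
    have hsq : ∀ w : SL(2, F), π w ∈ H → w 0 0 * w 1 1 = 1 → w 0 0 ≠ w 1 1 → w 1 0 = 0 →
        ∀ t : F, (1 - (w 0 0) ^ 2) * t ∈ E → t ∈ E := by
      intro w hw dw hn hw10 t ht
      have hmap : ∀ s ∈ E, (1 - (w 0 0) ^ 2) * s ∈ E := fun s hs => by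
        rw [sub_mul, one_mul]
        refine sub_mem hs ?_
        show π (up _) ∈ H
        have : up ((w 0 0) ^ 2 * s) = w * up s * w⁻¹ := by
          rw [eq_mul_inv_iff_mul_eq]
          apply sl2_ext <;> simp [up, sl2_mul, hw10] <;> grind
        rw [this, map_mul, map_mul, map_inv]
        exact mul_mem (mul_mem hw hs) (inv_mem hw)
      have hne : 1 - (w 0 0) ^ 2 ≠ 0 := fun e => hn (by grind)
      have hinj : Function.Injective (fun s : E => (⟨_, hmap s.1 s.2⟩ : E)) := fun s r h =>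
        Subtype.ext (mul_left_cancel₀ hne (congrArg Subtype.val h))
      obtain ⟨s, hs⟩ := Finite.surjective_of_injective hinj ⟨_, ht⟩
      rw [← mul_left_cancel₀ hne (congrArg Subtype.val hs)]
      exact s.2
    have hc : (1 - (g 0 0) ^ 2) * ((1 - (g' 0 0) ^ 2) * (R - R')) ∈ E := by
      have hcm : π (g * g' * g⁻¹ * g'⁻¹) ∈ H := by
        rw [map_mul, map_mul, map_mul, map_inv, map_inv]
        exact mul_mem (mul_mem (mul_mem hg hg') (inv_mem hg)) (inv_mem hg')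
      have : g * g' * g⁻¹ * g'⁻¹ = up ((1 - (g 0 0) ^ 2) * ((1 - (g' 0 0) ^ 2) * (R - R'))) := by
        rw [mul_inv_eq_iff_eq_mul, mul_inv_eq_iff_eq_mul]
        apply sl2_ext <;> simp [up, sl2_mul, h10, h10', hR, hR'] <;> grind
      rw [this] at hcm
      exact hcm
    exact hsq g' hg' d' hn' h10' _ (hsq g hg d hn h10 _ hc)
  obtain ⟨R₀, hR₀⟩ : ∃ R₀ : F, ∀ g : SL(2, F), π g ∈ H → g 0 0 ≠ g 1 1 →
      g 0 1 / (g 1 1 - g 0 0) - R₀ ∈ E := by
    by_cases h : ∃ g : SL(2, F), π g ∈ H ∧ g 0 0 ≠ g 1 1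
    · obtain ⟨g', hg', hn'⟩ := h
      exact ⟨_, fun g hg hn => hcomm g g' hg hg' hn hn'⟩
    · push Not at h
      exact ⟨0, fun g hg hn => absurd (h g hg) hn⟩
  set y : F := 2 / e
  have hy : y ≠ 0 := div_ne_zero h2 he0
  obtain ⟨a, ha1, ha2⟩ : ∃ a : F, -(1 / y + a) - R₀ ∉ E ∧ -a - R₀ ∉ E := by
    by_contra h
    push Not at h
    have hcov : (Set.univ : Set F) ⊆
        (fun s : F => -s - 1 / y - R₀) '' (E : Set F) ∪ (fun s : F => -s - R₀) '' (E : Set F) := by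
      intro a _
      by_cases h1 : -(1 / y + a) - R₀ ∈ E
      · exact Or.inl ⟨_, h1, by ring⟩
      · exact Or.inr ⟨_, h a h1, by ring⟩
    have hle := (Set.ncard_le_ncard hcov (Set.toFinite _)).trans (Set.ncard_union_le _ _)
    rw [Set.ncard_univ] at hle
    have h1 := Set.ncard_image_le (f := fun s : F => -s - 1 / y - R₀) (s := (E : Set F)) (Set.toFinite _)
    have h3 := Set.ncard_image_le (f := fun s : F => -s - R₀) (s := (E : Set F)) (Set.toFinite _)
    have hE2 : (E : Set F).ncard = Nat.card E := (Nat.card_coe_set_eq _).symm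
    have hmul := E.card_mul_index
    have hpos : 0 < Nat.card E := Nat.card_pos
    have hodd : Nat.card F % 2 = 1 := by
      rw [Nat.card_eq_fintype_card]; exact odd_of_two_ne rfl h2
    have hi1 : E.index ≠ 1 := fun h => hproper (AddSubgroup.index_eq_one.1 h)
    have hE : Nat.card (E : Set F) = Nat.card E := rfl
    have hi2 : E.index ≠ 2 := fun h => by rw [h] at hmul; omega
    have hi0 : E.index ≠ 0 := fun h => by
      rw [h, mul_zero] at hmul; omega
    have : Nat.card E * 3 ≤ Nat.card F := by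
      rw [← hmul]; exact Nat.mul_le_mul_left _ (by omega)
    omega
  set W : SL(2, F) := lo y * up a
  set C : SL(2, F) := anti 1 * diagSL (Units.mk0 y hy)
  have hex : up e * lo (-(4 / e)) = -(W * up (-e) * W⁻¹) := by
    rw [show W * up (-e) * W⁻¹ = lo y * up (-e) * (lo y)⁻¹ by
      simp only [W, _root_.mul_inv_rev, mul_assoc]
      rw [← mul_assoc (up a), ← up_add, add_comm, up_add, mul_assoc, mul_inv_cancel_left]]
    apply sl2_ext <;>
      simp [up, lo, sl2_mul, sl2_neg, sl2_inv_00, sl2_inv_01, sl2_inv_10, sl2_inv_11, y] <;>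
      field_simp <;> ring
  have hx : π (up e * lo (-(4 / e))) ∈ cj (π W) H := by
    rw [hex, π_neg, mem_cj, ← map_inv, ← map_mul, ← map_mul]
    rw [show W⁻¹ * (W * up (-e) * W⁻¹) * W = (up e)⁻¹ by
      simp [mul_assoc]; exact eq_inv_of_mul_eq_one_left (by rw [← up_add, neg_add_cancel, up_zero])]
    rw [map_inv]; exact inv_mem he
  have hy' : π (up e) ∈ cj 1 H := by rw [cj_one]; exact he
  have hCz : C * up e * C⁻¹ = lo (-(4 / e)) := by
    rw [show C * up e * C⁻¹ = anti 1 * (diagSL (Units.mk0 y hy) * up e *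
      (diagSL (Units.mk0 y hy))⁻¹) * (anti 1)⁻¹ by simp [C, mul_assoc], diagSL_conj_up, anti_conj_up]
    congr 1
    simp [y]; field_simp; ring
  have hz : π (lo (-(4 / e))) ∈ cj (π C) H := by
    rw [← hCz, mem_cj, ← map_inv, ← map_mul, ← map_mul]
    simpa [mul_assoc] using he
  obtain ⟨u, hu, v, hv, huv⟩ := hb.triple hx hy' hz (map_mul π _ _)
  have hA : ∀ {w : PSL(2, F)}, w ∈ cj (π W) H → ∃ g : SL(2, F), π g ∈ H ∧ w = π (W * g * W⁻¹) := by
    rintro _ ⟨x, hx, rfl⟩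
    obtain ⟨g, rfl⟩ := π_surjective x
    exact ⟨g, hx, by simp⟩
  have hscal : ∀ g : SL(2, F), π g ∈ H → g 0 1 = 0 → g 0 0 = g 1 1 → π (W * g * W⁻¹) = 1 := by
    intro g hg h01 heq
    rw [map_mul, map_mul, map_inv,
      π_eq_one_iff_isScal.2 ⟨h01, mem_borel.1 (hB hg), heq⟩, mul_one, mul_inv_cancel]
  have hu1 : u = 1 := by
    obtain ⟨huA, huB⟩ := Subgroup.mem_inf.1 hu
    obtain ⟨g, hg, rfl⟩ := hA huA
    rw [cj_one] at huB
    have h10 := mem_borel.1 (hB huB)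
    have g10 := mem_borel.1 (hB hg)
    simp [W, sl2_mul, up, lo, g10, sl2_inv_00, sl2_inv_01, sl2_inv_10, sl2_inv_11] at h10
    by_cases heq : g 0 0 = g 1 1
    · have : y * y * g 0 1 = 0 := by grind
      exact hscal g hg (by simpa [hy] using this) heq
    · exfalso
      refine ha1 ?_
      have hne : g 1 1 - g 0 0 ≠ 0 := sub_ne_zero.2 (Ne.symm heq)
      have hR : g 0 1 / (g 1 1 - g 0 0) = -(1 / y + a) := by
        field_simp
        grind
      have := hR₀ g hg heq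
      rwa [hR] at this
  have hv1 : v = 1 := by
    obtain ⟨hvA, hvC⟩ := Subgroup.mem_inf.1 hv
    obtain ⟨g, hg, rfl⟩ := hA hvA
    rw [mem_cj, ← map_inv, ← map_mul, ← map_mul] at hvC
    have h10 := mem_borel.1 (hB hvC)
    have g10 := mem_borel.1 (hB hg)
    simp [C, W, sl2_mul, up, lo, anti, diagSL, g10, sl2_inv_00, sl2_inv_01, sl2_inv_10,
      sl2_inv_11, hy] at h10
    by_cases heq : g 0 0 = g 1 1
    · exact hscal g hg (by grind) heq
    · exfalso
      refine ha2 ?_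
      have hne : g 1 1 - g 0 0 ≠ 0 := sub_ne_zero.2 (Ne.symm heq)
      have hR : g 0 1 / (g 1 1 - g 0 0) = -a := by
        field_simp
        grind
      have := hR₀ g hg heq
      rwa [hR] at this
  rw [hu1, hv1, one_mul, π_eq_one_iff_isScal] at huv
  exact he0 (by simpa [up, lo, sl2_mul] using huv.1)

end Cfsg.Agent.H6.Bin
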