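import Cfsg.Agent.H6.Binary.Borel

/-!
# Binary coset actions of `PSL₂`: even order subgroups in characteristic two
-/

set_option autoImplicit false

open Matrix MatrixGroups

namespace Cfsg.Agent.H6.Bin

section general

variable {G : Type*} [Group G] {H : Subgroup G}

lemma self_mem_fixCl (x : G) : x ∈ fixCl H x := mem_fixCl.2 fun _ h => h

lemma fixCl_mono {x s : G} (hs : s ∈ fixCl H x) : fixCl H s ≤ fixCl H x := fun _ hu =>
  mem_fixCl.2 fun p hp => mem_fixCl.1 hu p (mem_fixCl.1 hs p hp)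

lemma fixCl_le {x a : G} (hx : x ∈ cj a H) : fixCl H x ≤ cj a H := fun _ hu =>
  mem_stab_mk.1 (mem_fixCl.1 hu _ (mem_stab_mk.2 hx))

lemma conj_mem_fixCl {x s : G} (c : G) (hs : s ∈ fixCl H x) :
    c * s * c⁻¹ ∈ fixCl H (c * x * c⁻¹) := mem_fixCl.2 fun p hp => by
  have h : x • (c⁻¹ • p) = c⁻¹ • p := by
    rw [eq_inv_smul_iff, ← mul_smul, ← mul_smul]
    exact hp
  have := mem_fixCl.1 hs _ h
  rw [mul_smul, mul_smul, this, smul_inv_smul]

end general

variable {F : Type*} [Field F] [Fintype F]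

lemma exists_sqrt (h2 : (2 : F) = 0) {a : F} (ha : a ≠ 0) :
    ∃ t : Fˣ, ((t ^ 2 : Fˣ) : F) = a := by
  obtain ⟨s, hs⟩ := FiniteField.isSquare_of_char_two
    (CharP.ringChar_of_prime_eq_zero Nat.prime_two (by exact_mod_cast h2)) a
  have hs0 : s ≠ 0 := fun e => ha (by rw [hs, e, mul_zero])
  exact ⟨Units.mk0 s hs0, by simp [hs, sq]⟩

/-- The transport between non-trivial elements of `Uinf`. -/
lemma exists_diag_up (h2 : (2 : F) = 0) {a b : F} (ha : a ≠ 0) (hb : b ≠ 0) :
    ∃ d : PSL(2, F), ∀ c : F, d * π (up c) * d⁻¹ = π (up (b / a * c)) := by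
  obtain ⟨t, ht⟩ := exists_sqrt h2 (div_ne_zero hb ha)
  exact ⟨π (diagSL t), fun c => by rw [← map_inv, ← map_mul, ← map_mul, diagSL_conj_up, ht]⟩

lemma not_bin_even {H : Subgroup PSL(2, F)} (h2 : (2 : F) = 0) (hinv : π (up (1 : F)) ∈ H)
    (hnU : ∀ c : PSL(2, F), ¬ Uinf F ≤ cj c H) : ¬ IsBin H := by
  classical
  intro hb
  set S : F → Subgroup PSL(2, F) := fun b => fixCl H (π (up b))
  -- the closure of an involution consists of unipotent elements
  have hSU : ∀ b : F, b ≠ 0 → ∀ s ∈ S b, s ∈ Uinf F := by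
    intro b hb0 s hs
    obtain ⟨d, hd⟩ := exists_diag_up h2 one_ne_zero hb0
    have hx : π (up b) ∈ cj d H := by
      refine ⟨π (up 1), hinv, ?_⟩
      simpa using hd 1
    have hnot : ¬ Uinf F ≤ S b := fun h => hnU d (h.trans (fixCl_le hx))
    have hinvar : ∀ a : F, ∀ u ∈ S b, π (up a) * u * (π (up a))⁻¹ ∈ S b := fun a u hu => by
      have e : π (up a) * π (up b) * (π (up a))⁻¹ = π (up b) := by
        rw [← map_mul, ← up_add, add_comm, up_add, map_mul, mul_inv_cancel_right]
      have := conj_mem_fixCl (π (up a)) hu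
      rwa [e] at this
    obtain ⟨g, rfl⟩ := π_surjective s
    by_cases h10 : g 1 0 = 0
    · refine π_eq_up_of_chi h10 (by_contra fun hne => hnot fun x hx => ?_)
      obtain ⟨a, rfl⟩ := mem_Uinf.1 hx
      have hk : 1 - (g 0 0) ^ 2 ≠ 0 := fun e => hne (sub_eq_zero.1 e).symm
      have e : up a = up (a / (1 - (g 0 0) ^ 2)) * g * (up (a / (1 - (g 0 0) ^ 2)))⁻¹ * g⁻¹ := by
        have d := sl2_det g
        rw [eq_mul_inv_iff_mul_eq, eq_mul_inv_iff_mul_eq]
        apply sl2_ext <;> simp [up, sl2_mul, h10] <;> field_simp <;> grind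
      rw [e, map_mul, map_mul, map_mul, map_inv, map_inv]
      exact mul_mem (hinvar _ _ hs) (inv_mem hs)
    · exfalso
      have hM : Subgroup.normalizer (S b : Set PSL(2, F)) = ⊤ := by
        refine eq_top_of_up (fun a => Subgroup.mem_normalizer_iff.2 fun u => ⟨hinvar a u, fun h => ?_⟩)
          (Subgroup.le_normalizer hs) h10
        have := hinvar (-a) _ h
        have e : π (up (-a)) = (π (up a))⁻¹ := eq_inv_of_mul_eq_one_left (by
          rw [← map_mul, ← up_add, neg_add_cancel, up_zero, map_one])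
        rw [e] at this
        simpa [mul_assoc] using this
      refine hnot fun x hx => ?_
      obtain ⟨a, rfl⟩ := mem_Uinf.1 hx
      by_cases ha : a = 0
      · subst ha; rw [up_zero, map_one]; exact one_mem _
      obtain ⟨e, he⟩ := exists_diag_up h2 hb0 ha
      have h1 := he b
      rw [div_mul_cancel₀ _ hb0] at h1
      rw [← h1]
      exact (Subgroup.mem_normalizer_iff.1 (hM ▸ Subgroup.mem_top e) _).1 (self_mem_fixCl _)
  -- the field of multipliers
  have hscale : ∀ b c : F, b ≠ 0 → (π (up c) ∈ S b ↔ π (up (c / b)) ∈ S 1) := by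
    intro b c hb0
    obtain ⟨d, hd⟩ := exists_diag_up h2 hb0 one_ne_zero
    obtain ⟨d', hd'⟩ := exists_diag_up h2 one_ne_zero hb0
    constructor
    · intro h
      have := conj_mem_fixCl d h
      rw [hd, hd, one_div, inv_mul_cancel₀ hb0] at this
      rwa [div_eq_inv_mul]
    · intro h
      have := conj_mem_fixCl d' h
      rw [hd', hd', div_one, mul_one, mul_div_cancel₀ _ hb0] at this
      exact this
  set K : Set F := {c | π (up c) ∈ S 1}
  have K1 : (1 : F) ∈ K := self_mem_fixCl _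
  have Kmul : ∀ {c d : F}, c ∈ K → d ∈ K → c * d ∈ K := fun {c d} hc hd => by
    by_cases hc0 : c = 0
    · rw [hc0, zero_mul]; exact hc0 ▸ hc
    · exact fixCl_mono hc ((hscale c (c * d) hc0).2 (by rwa [mul_div_cancel_left₀ _ hc0]))
  have Kadd : ∀ {c d : F}, c ∈ K → d ∈ K → c + d ∈ K := fun {c d} hc hd => by
    show π (up (c + d)) ∈ S 1
    rw [up_add, map_mul]; exact mul_mem hc hd
  have Ksub : ∀ {c d : F}, c ∈ K → d ∈ K → c - d ∈ K := fun {c d} hc hd => by
    have : c - d = c + d := by linear_combination -d * h2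
    rw [this]; exact Kadd hc hd
  have Kinv : ∀ {c : F}, c ∈ K → c ≠ 0 → c⁻¹ ∈ K := fun {c} hc hc0 => by
    have hinj : Function.Injective (fun d : K => (⟨c * d.1, Kmul hc d.2⟩ : K)) := fun d e h =>
      Subtype.ext (mul_left_cancel₀ hc0 (congrArg Subtype.val h))
    obtain ⟨⟨d, hd⟩, h⟩ := Finite.surjective_of_injective hinj ⟨1, K1⟩
    have h' : c * d = 1 := congrArg Subtype.val h
    rwa [inv_eq_of_mul_eq_one_right h']
  obtain ⟨h, hh⟩ : ∃ h : F, h ∉ K := by
    by_contra hc
    push Not at hc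
    refine hnU 1 (fun x hx => ?_)
    obtain ⟨a, rfl⟩ := mem_Uinf.1 hx
    exact fixCl_le (by rw [cj_one]; exact hinv) (hc a)
  have h0 : h ≠ 0 := fun e => hh (by rw [e]; show π (up (0 : F)) ∈ S 1; rw [up_zero, map_one]; exact one_mem _)
  have h1 : 1 + h ≠ 0 := fun e => hh (by
    have : h = 1 := by linear_combination e - h2
    rw [this]; exact K1)
  have hneg : ∀ b : F, (π (up b))⁻¹ = π (up b) := fun b => inv_eq_of_mul_eq_one_right (by
    rw [← map_mul, ← up_add, show b + b = 0 by linear_combination b * h2, up_zero, map_one])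
  obtain ⟨k, hk⟩ := hb.pair (g := π (up 1)) (h := π (up h))
    (by rw [← map_mul, ← up_add, show (1 : F) + 1 = 0 by linear_combination h2, up_zero, map_one])
    (by rw [← map_mul, ← map_mul, ← up_add, ← up_add, add_comm])
  have hk1 : (π (up h))⁻¹ * k ∈ S 1 := mem_fixCl.2 fun p hp => by
    rw [mul_smul, (hk p).1 hp, inv_smul_smul]
  have hk2 : (π (up 1))⁻¹ * k ∈ S h := mem_fixCl.2 fun p hp => by
    rw [mul_smul, (hk p).2.1 hp, inv_smul_smul]
  have hk3 : (π (up 1))⁻¹ * k ∈ S (1 + h) := mem_fixCl.2 fun p hp => by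
    rw [up_add, map_mul] at hp
    rw [mul_smul, (hk p).2.2 hp, inv_smul_smul]
  obtain ⟨e, he⟩ := mem_Uinf.1 (hSU 1 one_ne_zero _ hk1)
  rw [eq_inv_mul_iff_mul_eq, ← map_mul, ← up_add] at he
  subst he
  rw [hneg, ← map_mul, ← up_add] at hk1 hk2 hk3
  have a1 : e ∈ K := by
    have : h + (h + e) = e := by linear_combination h * h2
    rwa [this] at hk1
  have a2 := (hscale h _ h0).1 hk2
  have a3 := (hscale (1 + h) _ h1).1 hk3
  set κ := (1 + (h + e)) / h with hκ
  have hκe : h * (1 - κ) = -(1 + e) := by rw [hκ]; field_simp; ring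
  by_cases hone : κ = 1
  · have he1 : e = 1 := by
      rw [hone, sub_self, mul_zero] at hκe
      linear_combination hκe - h2 * 0 + (0 : F) + (1 + e) * 0 + (-1 : F) * h2
    rw [he1] at a3
    set l := (1 + (h + 1)) / (1 + h) with hl
    have hle : h * (1 - l) = l := by
      rw [hl]; field_simp; linear_combination -h2 * (h + 1) + h * h2 * 0
    have hl1 : 1 - l ≠ 0 := fun e' => by
      rw [e', mul_zero] at hle
      rw [← hle, sub_zero] at e'
      exact one_ne_zero e'
    refine hh ?_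
    rw [show h = l * (1 - l)⁻¹ by rw [← div_eq_mul_inv, eq_div_iff hl1, hle]]
    exact Kmul a3 (Kinv (Ksub K1 a3) hl1)
  · have hk0 : 1 - κ ≠ 0 := sub_ne_zero.2 (Ne.symm hone)
    refine hh ?_
    rw [show h = (1 + e) * (1 - κ)⁻¹ by
      rw [← div_eq_mul_inv, eq_div_iff hk0, hκe]; linear_combination -(1 + e) * h2]
    exact Kmul (Kadd K1 a1) (Kinv (Ksub K1 a2) hk0)

end Cfsg.Agent.H6.Bin
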