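import Cfsg.Agent.H6.Binary.Odd

/-!
# The binary coset actions of `PSL₂(q)`
-/

set_option autoImplicit false

open Matrix MatrixGroups

namespace Cfsg.Agent.H6.Bin

variable {F : Type*} [Field F] [Fintype F]

lemma mx_of_mem_Uinf {z : PSL(2, F)} (hz : z ∈ Uinf F) (hz1 : z ≠ 1) : mx z = Uinf F := by
  obtain ⟨a, rfl⟩ := mem_Uinf.1 hz
  rw [mx_π, tor_up (fun e => hz1 (by rw [e, up_zero, map_one]))]

lemma mx_of_mem_cj_Uinf {c z : PSL(2, F)} (hz : z ∈ cj c (Uinf F)) (hz1 : z ≠ 1) :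
    mx z = cj c (Uinf F) := by
  obtain ⟨u, hu, rfl⟩ := hz
  have hu1 : u ≠ 1 := fun e => hz1 (by rw [e, map_one])
  rw [show (MulAut.conj c).toMonoidHom u = c * u * c⁻¹ from rfl, mx_conj, mx_of_mem_Uinf hu hu1]

lemma mul_self_of_mem_cj_Uinf (h2 : (2 : F) = 0) {c z : PSL(2, F)} (hz : z ∈ cj c (Uinf F)) :
    z * z = 1 := by
  obtain ⟨u, hu, rfl⟩ := hz
  obtain ⟨a, rfl⟩ := mem_Uinf.1 hu
  rw [← map_mul, ← map_mul, ← up_add, show a + a = 0 by linear_combination a * h2, up_zero,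
    map_one, map_one]

/-- Sylow two-subgroups in characteristic two give binary actions. -/
lemma isBin_Uinf (h2 : (2 : F) = 0) : IsBin (Uinf F) := by
  refine isBin_of_TI (fun a ha x hx hx' => by_contra fun h1 => ha ?_) ?_
  · rw [← mx_of_mem_cj_Uinf hx' h1, mx_of_mem_Uinf hx h1]
  intro b c x y z hx hy hz he hb hc hbc
  by_contra h1
  have hy1 : y ≠ 1 := fun e => h1 (by
    rw [e, one_mul] at he
    by_contra h1'
    exact hc (by rw [← mx_of_mem_cj_Uinf (he ▸ hz) h1', mx_of_mem_Uinf hx h1']))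
  have hz1 : z ≠ 1 := fun e => h1 (by
    rw [e, mul_one] at he
    by_contra h1'
    exact hb (by rw [← mx_of_mem_cj_Uinf (he ▸ hy) h1', mx_of_mem_Uinf hx h1']))
  have hxx : x * x = 1 := mul_self_of_mem_cj_Uinf h2 (c := 1) (by rw [cj_one]; exact hx)
  have hyy := mul_self_of_mem_cj_Uinf h2 hy
  have hzz := mul_self_of_mem_cj_Uinf h2 hz
  have hcomm : z * y = y * z := by
    have e := inv_eq_of_mul_eq_one_right hxx
    rw [he, _root_.mul_inv_rev, inv_eq_of_mul_eq_one_right hyy,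
      inv_eq_of_mul_eq_one_right hzz] at e
    exact e
  have hU : IsUni (cj b (Uinf F)) := ⟨b⁻¹, by rw [cj_cj, inv_mul_cancel, cj_one]⟩
  exact hbc (by
    rw [← mx_of_mem_cj_Uinf (mem_of_commute_isUni hU hy hy1 hcomm) hz1, mx_of_mem_cj_Uinf hz hz1])

/-- No primitive cube root of unity. -/
abbrev NoCubeRoot (F : Type*) [Field F] : Prop := ∀ w : F, w ^ 2 + w + 1 ≠ 0

lemma tr_of_orderOf_three (h2 : (2 : F) = 0) (hw : NoCubeRoot F) {g : SL(2, F)}
    (h3 : g * g * g = 1) (hne : g ≠ 1) : tr g = 1 := by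
  have h1 : g * g = g⁻¹ := eq_inv_of_mul_eq_one_left h3
  have e00 := congrArg (fun X : SL(2, F) => X 0 0) h1
  have e01 := congrArg (fun X : SL(2, F) => X 0 1) h1
  have e10 := congrArg (fun X : SL(2, F) => X 1 0) h1
  have e11 := congrArg (fun X : SL(2, F) => X 1 1) h1
  have d := sl2_det g
  simp [sl2_mul, sl2_inv_00, sl2_inv_01, sl2_inv_10, sl2_inv_11] at e00 e01 e10 e11
  by_contra ht
  have a01 : g 0 1 * (tr g + 1) = 0 := by simp only [tr]; linear_combination e01
  have a10 : g 1 0 * (tr g + 1) = 0 := by simp only [tr]; linear_combination e10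
  have ht' : tr g + 1 ≠ 0 := fun e => ht (by linear_combination e - h2)
  have b01 := (mul_eq_zero.1 a01).resolve_right ht'
  have b10 := (mul_eq_zero.1 a10).resolve_right ht'
  rw [b01, zero_mul, add_zero] at e00
  rw [b01, zero_mul, sub_zero] at d
  have hc : (g 0 0 - 1) * ((g 0 0) ^ 2 + g 0 0 + 1) = 0 := by
    linear_combination d + g 0 0 * e00
  have h00 : g 0 0 = 1 := sub_eq_zero.1 ((mul_eq_zero.1 hc).resolve_right (hw _))
  refine hne (sl2_ext ?_ ?_ ?_ ?_) <;> simp [h00, b01, b10]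
  rw [h00, one_mul] at d
  exact d

lemma exists_tr_one (h2 : (2 : F) = 0) (hw : NoCubeRoot F) {H : Subgroup PSL(2, F)}
    (h3 : Nat.card H = 3) {c x : PSL(2, F)} (hx : x ∈ cj c H) (hx1 : x ≠ 1) :
    ∃ X : SL(2, F), π X = x ∧ tr X = 1 ∧ ¬ IsScal X := by
  obtain ⟨X, rfl⟩ := π_surjective x
  have hp : π X ^ 3 = 1 := by
    rw [← orderOf_dvd_iff_pow_eq_one, ← h3, ← card_cj c H]
    exact Subgroup.orderOf_dvd_natCard _ hx
  have hX3 : X * X * X = 1 := π_injective_of_two h2 (by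
    rw [map_mul, map_mul, map_one, ← hp, pow_succ, sq])
  have hX1 : X ≠ 1 := fun e => hx1 (by rw [e, map_one])
  exact ⟨X, rfl, tr_of_orderOf_three h2 hw hX3 hX1, fun h => hx1 (π_eq_one_iff_isScal.2 h)⟩

/-- Subgroups of order three in `PSL(2, 2^odd)` give binary actions. -/
lemma isBin_three (h2 : (2 : F) = 0) (hw : NoCubeRoot F) {H : Subgroup PSL(2, F)}
    (h3 : Nat.card H = 3) : IsBin H := by
  have := Fact.mk Nat.prime_three
  have hTI : ∀ (a b : PSL(2, F)) (x : PSL(2, F)), x ∈ cj a H → x ∈ cj b H → x ≠ 1 →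
      cj a H = cj b H := by
    intro a b x ha hb hx1
    have key : ∀ a, x ∈ cj a H → Subgroup.zpowers x = cj a H := fun a ha => by
      refine Subgroup.eq_of_le_of_card_ge (Subgroup.zpowers_le.2 ha) ?_
      rw [card_cj, h3, Nat.card_zpowers]
      have := Subgroup.orderOf_dvd_natCard _ ha
      rw [card_cj, h3, Nat.dvd_prime Nat.prime_three] at this
      rcases this with e | e
      · exact absurd (orderOf_eq_one_iff.1 e) hx1
      · omega
    rw [← key a ha, key b hb]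
  refine isBin_of_TI (fun a ha x hx hx' => by_contra fun h1 =>
    ha ((hTI a 1 x hx' (by rw [cj_one]; exact hx) h1).trans (cj_one H))) ?_
  intro b c x y z hx hy hz he hb hc hbc
  by_contra h1
  have hx' : x ∈ cj 1 H := by rw [cj_one]; exact hx
  have hy1 : y ≠ 1 := fun e => hc ((hTI c 1 x (by rw [he, e, one_mul]; exact hz) hx' h1).trans (cj_one H))
  have hz1 : z ≠ 1 := fun e => hb ((hTI b 1 x (by rw [he, e, mul_one]; exact hy) hx' h1).trans (cj_one H))
  obtain ⟨Y, rfl, tY, sY⟩ := exists_tr_one h2 hw h3 hy hy1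
  obtain ⟨Z, rfl, tZ, -⟩ := exists_tr_one h2 hw h3 hz hz1
  obtain ⟨X, hX, tX, -⟩ := exists_tr_one h2 hw h3 hx' h1
  rw [he, ← map_mul] at hX
  rw [π_injective_of_two h2 hX] at tX
  obtain ⟨P, hP⟩ := isConj_iff.1 (isConj_of_tr_eq sY (not_isScal_comp 1) (Or.inr h2)
    (tY.trans (tr_comp 1).symm))
  set W := P * Z * P⁻¹
  have tW : tr W = 1 := by rw [tr_conj, tZ]
  have tYW : tr (comp (1 : F) * W) = 1 := by
    rw [← hP, show P * Y * P⁻¹ * W = P * (Y * Z) * P⁻¹ by simp [W, mul_assoc], tr_conj, tX]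
  have d := sl2_det W
  simp [tr, sl2_mul, comp] at tW tYW
  have hq : (W 0 0) ^ 2 + W 0 0 * (W 0 1 + 1) + (W 0 1 + 1) ^ 2 = 0 := by grind
  have hB : W 0 1 + 1 = 0 := by
    by_contra hB
    exact hw (W 0 0 / (W 0 1 + 1)) (by field_simp; linear_combination hq)
  rw [hB] at hq
  have h00 : W 0 0 = 0 := by simpa using hq
  have hW : W = comp 1 := by
    apply sl2_ext <;> simp [comp] <;> grind
  have hYZ : Z = Y := by
    rw [← hP] at hW
    exact mul_left_cancel (mul_right_cancel hW)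
  exact hbc (hTI b c _ hy (hYZ ▸ hz) hy1)

/-- Odd order subgroups: either in a torus or in a Borel subgroup, up to conjugation. -/
lemma odd_structure {H : Subgroup PSL(2, F)} (hodd : Nat.card H % 2 = 1) (hne : H ≠ ⊥) :
    (∃ g : SL(2, F), tr g ^ 2 ≠ 4 ∧ ∃ c, cj c H ≤ tor g) ∨ ∃ c, cj c H ≤ borel F := by
  obtain ⟨p, hpc⟩ := CharP.exists F
  have := Fact.mk (CharP.char_is_prime F p)
  obtain ⟨c, hc⟩ := exists_outcome p H
  have hcard : Nat.card (cj c H) % 2 = 1 := by rw [card_cj]; exact hodd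
  have hev : ∀ N, Nat.card (cj c H) = N → N % 2 = 0 → False := fun N e he => by
    rw [e] at hcard; omega
  cases hc with
  | triv h =>
    rw [card_cj, Subgroup.card_eq_one] at h
    exact absurd h hne
  | dih h =>
    obtain ⟨w, hw, hle⟩ := h
    refine Or.inl ⟨w, hw, c, fun u hu => by_contra fun hn => ?_⟩
    obtain ⟨e1, e2, -⟩ := outside_torDih hw (hle hu) hn
    have hd := Subgroup.orderOf_dvd_natCard _ hu
    rw [orderOf_eq_prime (p := 2) (by rw [sq, e1]) e2] at hd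
    omega
  | bor h =>
    obtain ⟨d, hd⟩ := h
    exact Or.inr ⟨d * c, by rwa [cj_cj] at hd⟩
  | a4 h _ => exact (hev 12 h rfl).elim
  | s4 h _ _ => exact (hev 24 h rfl).elim
  | a5 h _ _ => exact (hev 60 h rfl).elim
  | gen h =>
    exfalso
    obtain ⟨r, k, -, hr, -, hk, hkr, hcd, -⟩ := h
    obtain ⟨n, hn, hqn⟩ := FiniteField.card F p
    have hrq : r ∣ Fintype.card F := by
      rw [← hr, ← card_Uinf (F := F)]
      exact Subgroup.card_dvd_of_le inf_le_left
    refine hev _ hcd ?_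
    rcases Nat.mod_two_eq_zero_or_one r with e | e
    · rw [Nat.mul_mod, show r * k % 2 = 0 by rw [Nat.mul_mod, e, zero_mul, Nat.zero_mod]]; simp
    · rw [Nat.mul_mod, show (r + 1) % 2 = 0 by omega, zero_mul, Nat.zero_mod]

/-- Unipotent subgroups in odd characteristic. -/
lemma not_bin_Uinf_odd {H : Subgroup PSL(2, F)} (h2 : (2 : F) ≠ 0) (hle : H ≤ Uinf F) {e : F}
    (he : π (up e) ∈ H) (he0 : e ≠ 0) : ¬ IsBin H := by
  intro hb
  have h1 : tor (up (1 : F)) = Uinf F := tor_up one_ne_zero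
  set y : F := 2 / e
  have hy : y ≠ 0 := div_ne_zero h2 he0
  have hx : π (up e * lo (-(4 / e))) ∈ cj (π (lo y)) H := by
    have e1 : up e * lo (-(4 / e)) = -(lo y * up (-e) * (lo y)⁻¹) := by
      apply sl2_ext <;>
        simp [up, lo, sl2_mul, sl2_neg, sl2_inv_00, sl2_inv_01, sl2_inv_10, sl2_inv_11, y] <;>
        field_simp <;> ring
    rw [e1, π_neg, mem_cj, ← map_inv, ← map_mul, ← map_mul]
    rw [show (lo y)⁻¹ * (lo y * up (-e) * (lo y)⁻¹) * lo y = (up e)⁻¹ by
      simp [mul_assoc]; exact eq_inv_of_mul_eq_one_left (by rw [← up_add, neg_add_cancel, up_zero])]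
    rw [map_inv]; exact inv_mem he
  set C : SL(2, F) := anti 1 * diagSL (Units.mk0 y hy)
  have hz : π (lo (-(4 / e))) ∈ cj (π C) H := by
    have hCz : C * up e * C⁻¹ = lo (-(4 / e)) := by
      rw [show C * up e * C⁻¹ = anti 1 * (diagSL (Units.mk0 y hy) * up e *
        (diagSL (Units.mk0 y hy))⁻¹) * (anti 1)⁻¹ by simp [C, mul_assoc], diagSL_conj_up,
        anti_conj_up]
      congr 1
      simp [y]; field_simp; ring
    rw [← hCz, mem_cj, ← map_inv, ← map_mul, ← map_mul]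
    simpa [mul_assoc] using he
  refine not_bin_of_triangle (not_isScal_up one_ne_zero) (h1 ▸ hle) hb ?_ hx
    (show π (up e) ∈ cj 1 H by rw [cj_one]; exact he) hz
  intro h
  have h00 := congrArg (fun X : SL(2, F) => X 0 0) h
  simp [up, lo, sl2_mul] at h00
  have h4 : (4 : F) = 0 := by simpa [he0] using h00
  exact h2 (mul_self_eq_zero.1 (by linear_combination h4))

/-- The negative half for odd order subgroups. -/
lemma odd_order_bin {H : Subgroup PSL(2, F)} (hodd : Nat.card H % 2 = 1) (hne : H ≠ ⊥)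
    (hb : IsBin H) : (2 : F) = 0 ∧ Nat.card H = 3 ∧ NoCubeRoot F := by
  classical
  -- semisimple abelian subgroups
  have hss : ∀ K : Subgroup PSL(2, F), IsBin K → Nat.card K % 2 = 1 → ∀ h : SL(2, F),
      π h ∈ K → tr h ^ 2 ≠ 4 → (∀ u ∈ K, u * π h = π h * u) →
        (2 : F) = 0 ∧ Nat.card K = 3 ∧ NoCubeRoot F := by
    intro K hbK hKodd h hh ht hcomm
    have hns := not_isScal_of_ss ht
    have hle : K ≤ tor h := by
      intro u hu
      by_cases h2 : (2 : F) = 0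
      · obtain ⟨e, rfl⟩ := π_surjective u
        refine mem_tor.2 (mem_cent.2 (π_injective_of_two h2 ?_))
        rw [map_mul, map_mul]
        exact (hcomm _ hu).symm
      · refine mem_tor_of_comm h2 hns (self_mem_tor h)
          (fun e => hns (π_eq_one_iff_isScal.1 e)) (fun e => ?_) (hcomm u hu)
        have := Subgroup.orderOf_dvd_natCard _ hh
        rw [e] at this
        omega
    have hall : ∀ k : SL(2, F), π k ∈ K → π k ≠ 1 → (2 : F) = 0 ∧ tr k = 1 := by
      intro k hk hk1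
      have htk : tr k ^ 2 ≠ 4 := isSS_π.1 (isSS_of_mem_mx (isSS_π.2 ht) (by rw [mx_π]; exact hle hk) hk1)
      by_contra hcon
      exact not_bin_ss hns hle hk htk (by tauto) hbK
    obtain ⟨h2, ht1⟩ := hall h hh fun e => hns (π_eq_one_iff_isScal.1 e)
    have hcr : NoCubeRoot F := fun w hw => not_bin_split h2 hns hle hh ht1 hw hbK
    have h3 : ∀ u : K, u ^ 3 = 1 := by
      rintro ⟨u, hu⟩
      apply Subtype.ext
      by_cases hu1 : u = 1
      · simp [hu1]
      obtain ⟨k, rfl⟩ := π_surjective u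
      obtain ⟨-, tk⟩ := hall k hu hu1
      have d := sl2_det k
      have : k * k * k = 1 := by
        simp only [tr] at tk
        apply sl2_ext <;> simp [sl2_mul] <;> grind
      show (π k) ^ 3 = 1
      rw [← map_pow, pow_succ, sq, this, map_one]
    have := tor_cyclic ht
    have : IsCyclic K := isCyclic_of_injective (Subgroup.inclusion hle) (Subgroup.inclusion_injective hle)
    obtain ⟨γ, hγ⟩ := IsCyclic.exists_generator (α := K)
    have hdvd : Nat.card K ∣ 3 := by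
      rw [← orderOf_eq_card_of_forall_mem_zpowers hγ]
      exact orderOf_dvd_of_pow_eq_one (h3 γ)
    rcases (Nat.dvd_prime Nat.prime_three).1 hdvd with e | e
    · exact absurd (Subgroup.mem_bot.1 (Subgroup.card_eq_one.1 e ▸ hh))
        (fun e => hns (π_eq_one_iff_isScal.1 e))
    · exact ⟨h2, e, hcr⟩
  have hkeep : ∀ c, Nat.card (cj c H) % 2 = 1 := fun c => by rw [card_cj]; exact hodd
  have hne' : ∀ c, ∃ x ∈ cj c H, x ≠ 1 := fun c => by
    obtain ⟨x, hx, hx1⟩ := H.bot_or_exists_ne_one.resolve_left hne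
    exact ⟨c * x * c⁻¹, ⟨x, hx, rfl⟩, fun e => hx1 (conj_eq_one_iff.1 e)⟩
  suffices ∃ c, (2 : F) = 0 ∧ Nat.card (cj c H) = 3 ∧ NoCubeRoot F by
    obtain ⟨c, a, b, d⟩ := this
    exact ⟨a, by rwa [card_cj] at b, d⟩
  rcases odd_structure hodd hne with ⟨g, hg, c, hle⟩ | ⟨c, hle⟩
  · obtain ⟨x, hx, hx1⟩ := hne' c
    obtain ⟨h, rfl⟩ := π_surjective x
    have ht : tr h ^ 2 ≠ 4 := isSS_π.1 (isSS_of_mem_mx (isSS_π.2 hg) (by rw [mx_π]; exact hle hx) hx1)
    refine ⟨c, hss _ (hb.cj_bin c) (hkeep c) h hx ht fun u hu => ?_⟩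
    have := tor_cyclic hg
    exact congrArg Subtype.val
      (IsCyclic.commGroup.mul_comm (⟨u, hle hu⟩ : tor g) ⟨π h, hle hx⟩)
  refine ⟨c, ?_⟩
  by_cases hU : ∃ a : F, a ≠ 0 ∧ π (up a) ∈ cj c H
  · exfalso
    obtain ⟨a, ha, haH⟩ := hU
    have h2 : (2 : F) ≠ 0 := fun h2 => by
      have := hkeep c
      have hd := Subgroup.orderOf_dvd_natCard _ haH
      rw [orderOf_eq_prime (p := 2) (by rw [sq, ← map_mul, ← up_add,
        show a + a = 0 by linear_combination a * h2, up_zero, map_one])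
        (fun e => ha (π_up_eq_one_iff.1 e))] at hd
      omega
    by_cases hU' : cj c H ≤ Uinf F
    · exact not_bin_Uinf_odd h2 hU' haH ha (hb.cj_bin c)
    · by_cases htop : upSet (cj c H) = ⊤
      · refine not_bin_borel (fun x hx => ?_) hle hU' (hb.cj_bin c)
        obtain ⟨b, rfl⟩ := mem_Uinf.1 hx
        exact mem_upSet.1 (htop ▸ AddSubgroup.mem_top b)
      · exact not_bin_borel_odd h2 hle haH ha htop (hb.cj_bin c)
  push Not at hU
  have hinj : ∀ x ∈ cj c H, x ∈ Uinf F → x = 1 := fun x hx hxU => by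
    obtain ⟨a, rfl⟩ := mem_Uinf.1 hxU
    by_cases ha : a = 0
    · rw [ha, up_zero, map_one]
    · exact absurd hx (hU a ha)
  have hcomm : ∀ u ∈ cj c H, ∀ v ∈ cj c H, u * v = v * u := by
    intro u hu v hv
    have hmem : u * v * u⁻¹ * v⁻¹ ∈ cj c H :=
      mul_mem (mul_mem (mul_mem hu hv) (inv_mem hu)) (inv_mem hv)
    have := hinj _ hmem (by
      rw [← chiB_eq_one_iff ⟨_, hle hmem⟩]
      have e : (⟨_, hle hmem⟩ : borel F) = ⟨u, hle hu⟩ * ⟨v, hle hv⟩ * (⟨u, hle hu⟩ : borel F)⁻¹ *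
          (⟨v, hle hv⟩ : borel F)⁻¹ := rfl
      rw [e, map_mul, map_mul, map_mul, map_inv, map_inv,
        mul_comm (chiB _) (chiB _), mul_inv_cancel_right, mul_inv_cancel])
    rwa [mul_inv_eq_one, mul_inv_eq_iff_eq_mul] at this
  obtain ⟨x, hx, hx1⟩ := hne' c
  obtain ⟨h, rfl⟩ := π_surjective x
  have ht : tr h ^ 2 ≠ 4 := isSS_π.1 (by
    by_contra hs
    exact hx1 (hinj _ hx ((chiB_eq_one_iff ⟨_, hle hx⟩).1 (by_contra fun e =>
      hs (isSS_of_chiB (x := ⟨_, hle hx⟩) e)))))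
  exact hss _ (hb.cj_bin c) (hkeep c) h hx ht fun u hu => hcomm u hu _ hx

end Cfsg.Agent.H6.Bin
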