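import Cfsg.Agent.H6.Binary.Even
import Cfsg.Agent.H6.Dickson
import Cfsg.Agent.H6.Applications
import Cfsg.Agent.H1.PSLSimple

/-!
# Binary coset actions of `PSL₂`: even order subgroups in odd characteristic
-/

set_option autoImplicit false

open Matrix MatrixGroups

namespace Cfsg.Agent.H6.Bin

variable {F : Type*} [Field F] [Fintype F] {q : ℕ}

/-- Commuting involutions other than the given one. -/
abbrev invNbr (x : PSL(2, F)) : Set PSL(2, F) := {b | orderOf b = 2 ∧ b ≠ x ∧ b * x = x * b}

lemma mul_self_of_inv {G : Type*} [Group G] {x : G} (hx : orderOf x = 2) : x * x = 1 := by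
  rw [← sq, ← hx, pow_orderOf_eq_one]

lemma comm_tr_zero (h2 : (2 : F) ≠ 0) {e h : SL(2, F)} (hc : π e * π h = π h * π e)
    (hnc : e * h ≠ h * e) : orderOf (π h) = 2 := by
  rw [orderOf_π_eq_two_iff h2]
  have h' : e * h = -(h * e) := (π_eq_iff.1 (by rw [map_mul, map_mul]; exact hc)).resolve_left hnc
  have : tr h = - tr h := by
    calc tr h = tr (e * h * e⁻¹) := (tr_conj e h).symm
      _ = tr (-h) := by rw [h']; simp [mul_assoc]
      _ = - tr h := tr_neg h
  have h2h : (2 : F) * tr h = 0 := by linear_combination this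
  exact (mul_eq_zero.1 h2h).resolve_left h2

/-- An element of a torus commuting with `y` puts `y` into the torus, unless it is an involution. -/
lemma mem_tor_of_comm (h2 : (2 : F) ≠ 0) {g : SL(2, F)} (hg : ¬ IsScal g) {r y : PSL(2, F)}
    (hr : r ∈ tor g) (hr1 : r ≠ 1) (hro : orderOf r ≠ 2) (hc : y * r = r * y) : y ∈ tor g := by
  obtain ⟨h, rfl⟩ := π_surjective r
  obtain ⟨e, rfl⟩ := π_surjective y
  have heh : e * h = h * e := by_contra fun hn => hro (comm_tr_zero h2 hc hn)
  rw [← tor_eq_of_mem hg hr hr1, mem_tor, mem_cent, heh]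

lemma count_absurd {n I : ℕ} (hn : 2 * n = q - 1 ∨ 2 * n = q + 1) (h3 : 3 ≤ n) (h7 : 7 ≤ q)
    (hodd : q % 2 = 1) (hI : I * (2 * n) * 2 = q * (q ^ 2 - 1))
    (h5 : 5 * (1 + n + n * (n - 2)) ≤ I) : False := by
  obtain ⟨j, rfl⟩ : ∃ j, q = 2 * j + 1 := ⟨q / 2, by omega⟩
  obtain ⟨m, rfl⟩ : ∃ m, n = m + 3 := ⟨n - 3, by omega⟩
  rw [show m + 3 - 2 = m + 1 by omega] at h5
  rw [show (2 * j + 1) ^ 2 - 1 = 4 * j * (j + 1) by
    rw [show (2 * j + 1) ^ 2 = 4 * j * (j + 1) + 1 by ring]; omega] at hI
  rcases hn with e | e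
  · obtain rfl : j = m + 3 := by omega
    nlinarith [mul_nonneg (Nat.zero_le m) (Nat.zero_le m)]
  · obtain rfl : j = m + 2 := by omega
    nlinarith [mul_nonneg (Nat.zero_le m) (Nat.zero_le m)]

lemma not_bin_inv (hq : Fintype.card F = q) (h2 : (2 : F) ≠ 0) (h7 : 7 ≤ q)
    {H : Subgroup PSL(2, F)} (hne : H ≠ ⊤) {x₀ : PSL(2, F)} (hx₀ : x₀ ∈ H)
    (ho : orderOf x₀ = 2) : ¬ IsBin H := by
  classical
  intro hb
  have hodd := odd_of_two_ne hq h2
  obtain ⟨p, hpc⟩ := CharP.exists F
  have := Fact.mk (CharP.char_is_prime F p)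
  obtain ⟨g₀, hg₀⟩ := exists_tr_zero (F := F) h2
  set n := Nat.card (tor g₀)
  set I := Nat.card {a : PSL(2, F) // orderOf a = 2}
  have hIn : I * (2 * n) = Nat.card PSL(2, F) := by
    rw [← card_involutions_mul h2 hg₀, card_torDih (ss_of_tr_zero h2 hg₀)]
  have hGq := card_psl2_odd h2 hq
  have hn : 2 * n = q - 1 ∨ 2 * n = q + 1 := by
    have hd : Nat.gcd 2 (q - 1) = 2 := Nat.gcd_eq_left (by omega)
    rcases card_tor_ss hq (ss_of_tr_zero h2 hg₀) with ⟨-, h⟩ | ⟨-, h⟩ <;> rw [hd] at h <;> omega
  have hnb : ∀ x : PSL(2, F), orderOf x = 2 → (invNbr x).ncard = n := by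
    intro x hx
    obtain ⟨g, rfl⟩ := π_surjective x
    have ht := (orderOf_π_eq_two_iff h2).1 hx
    have h1 := card_commuting h2 ht
    have h3 := card_involutions_mul h2 ht
    rw [card_torDih (ss_of_tr_zero h2 ht), ← hIn] at h3
    have hI0 : 0 < I := by
      by_contra hc
      rw [Nat.eq_zero_of_not_pos hc, zero_mul] at hIn
      exact Nat.card_pos.ne hIn
    have := Nat.eq_of_mul_eq_mul_left hI0 h3
    rw [← Nat.card_coe_set_eq]
    show Nat.card {b : PSL(2, F) // orderOf b = 2 ∧ b ≠ π g ∧ b * π g = π g * b} = n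
    omega
  set Ω := PSL(2, F) ⧸ H
  have hsimple : IsSimpleGroup PSL(2, F) := by
    obtain ⟨x, hx⟩ : ∃ x : F, x ≠ 0 ∧ x ^ 2 ≠ 1 := by
      by_contra hc
      push Not at hc
      have hsub : (Finset.univ : Finset F) ⊆ {0, 1, -1} := fun x _ => by
        by_cases hx : x = 0
        · simp [hx]
        · rcases sq_eq_one_iff.mp (hc x hx) with h' | h' <;> simp [h']
      have := Finset.card_le_card hsub
      rw [Finset.card_univ, hq] at this
      have h3 : ({0, 1, -1} : Finset F).card ≤ 3 := Finset.card_le_three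
      omega
    exact Cfsg.Agent.H1.isSimpleGroup_PSL (Or.inr ⟨x, hx⟩)
  -- two commuting involutions with different fixed points
  obtain ⟨g, h, pt, hgo, hho, hhg, hcomm, hgp, hhp⟩ : ∃ (g h : PSL(2, F)) (pt : Ω),
      orderOf g = 2 ∧ orderOf h = 2 ∧ h ≠ g ∧ h * g = g * h ∧ g • pt = pt ∧ h • pt ≠ pt := by
    by_contra hcon
    push Not at hcon
    let Φ : PSL(2, F) → Set Ω := fun x => {p | x • p = p}
    have hlink : ∀ x y : PSL(2, F), orderOf x = 2 → y ∈ invNbr x → Φ y = Φ x := by
      rintro x y hx ⟨hy, hne', hc⟩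
      ext p
      exact ⟨fun hp => hcon y x p hy hx (Ne.symm hne') hc.symm hp,
        fun hp => hcon x y p hx hy hne' hc hp⟩
    let Inv : Finset PSL(2, F) := Finset.univ.filter fun a => orderOf a = 2
    have hInv : Inv.card = I := by
      simp [Inv, I, Fintype.card_subtype]
    have hfib : ∀ x ∈ Inv, 1 + n + n * (n - 2) ≤ (Inv.filter fun y => Φ y = Φ x).card := by
      intro x hx
      have hxo : orderOf x = 2 := (Finset.mem_filter.1 hx).2
      obtain ⟨gx, rfl⟩ := π_surjective x
      have htx := (orderOf_π_eq_two_iff h2).1 hxo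
      have hsx := ss_of_tr_zero h2 htx
      let R : Finset PSL(2, F) := (invNbr (π gx)).toFinset
      let T : PSL(2, F) → Finset PSL(2, F) := fun z =>
        (invNbr z).toFinset \ {π gx, π gx * z}
      have hR : R.card = n := by rw [← hnb _ hxo, Set.ncard_eq_toFinset_card']
      have hmem : ∀ z ∈ R, orderOf z = 2 ∧ z ≠ π gx ∧ z * π gx = π gx * z ∧ z ∈ torDih gx ∧
          z ∉ tor gx := fun z hz => by
        obtain ⟨h1, h3, h4⟩ := Set.mem_toFinset.1 hz
        exact ⟨h1, h3, h4, (mem_centralizer_involution h2 htx).1 h4,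
          fun h => h3 (eq_of_involution_mem_tor h2 htx h h1)⟩
      have hprod : ∀ z ∈ R, ∀ y ∈ R, z * y = y * z → z ≠ y → y = π gx * z := by
        intro z hz y hy hzy hne'
        obtain ⟨z1, z2, z3, z4, z5⟩ := hmem z hz
        obtain ⟨y1, y2, y3, y4, y5⟩ := hmem y hy
        have hzy1 : z * y ≠ 1 := fun e => hne' (by
          have := eq_inv_of_mul_eq_one_left e
          rwa [inv_eq_of_mul_eq_one_right (mul_self_of_inv y1)] at this)
        have ho' : orderOf (z * y) = 2 := orderOf_eq_prime (by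
          rw [sq, mul_assoc, ← mul_assoc y z, ← hzy, mul_assoc z y y, mul_self_of_inv y1, mul_one,
            mul_self_of_inv z1]) hzy1
        rw [← eq_of_involution_mem_tor h2 htx (mul_mem_tor hsx z4 z5 y4 y5) ho', hzy, mul_assoc,
          mul_self_of_inv z1, mul_one]
      have hT : ∀ z ∈ R, (T z).card = n - 2 := by
        intro z hz
        obtain ⟨z1, z2, z3, -, -⟩ := hmem z hz
        have hxz : π gx * z ≠ 1 := fun e => z2 (by
          have := eq_inv_of_mul_eq_one_left e
          rw [inv_eq_of_mul_eq_one_right (mul_self_of_inv z1)] at this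
          exact this.symm)
        rw [Finset.card_sdiff_of_subset, Finset.card_pair, ← Set.ncard_eq_toFinset_card', hnb z z1]
        · intro e
          exact (fun e' : z = 1 => by rw [e', orderOf_one] at z1; omega)
            (mul_left_cancel (e.symm.trans (mul_one _).symm))
        · intro b hb
          rw [Finset.mem_insert, Finset.mem_singleton] at hb
          refine Set.mem_toFinset.2 ?_
          rcases hb with rfl | rfl
          · exact ⟨hxo, z2.symm, z3.symm⟩
          · refine ⟨orderOf_eq_prime ?_ hxz, fun e => ?_, ?_⟩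
            · rw [sq, mul_assoc, ← mul_assoc z, z3, mul_assoc, mul_self_of_inv z1, mul_one,
                mul_self_of_inv hxo]
            · have e1 : π gx = 1 := mul_right_cancel (e.trans (one_mul z).symm)
              rw [e1, orderOf_one] at hxo
              omega
            · rw [mul_assoc, ← mul_assoc z, z3, mul_assoc]
      have hTnc : ∀ z ∈ R, ∀ y ∈ T z, y ≠ π gx ∧ y * π gx ≠ π gx * y := by
        intro z hz y hy
        rw [Finset.mem_sdiff, Set.mem_toFinset, Finset.mem_insert, Finset.mem_singleton] at hy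
        obtain ⟨⟨y1, y2, y3⟩, hy'⟩ := hy
        push Not at hy'
        exact ⟨hy'.1, fun hc => hy'.2 (hprod z hz y (Set.mem_toFinset.2 ⟨y1, hy'.1, hc⟩) y3.symm
          (Ne.symm y2))⟩
      have hdisj : (R : Set PSL(2, F)).PairwiseDisjoint T := by
        intro z hz z' hz' hzz
        rw [Finset.mem_coe] at hz hz'
        simp only [Function.onFun]
        rw [Finset.disjoint_left]
        intro y hy hy'
        obtain ⟨hyx, hyc⟩ := hTnc z hz y hy
        obtain ⟨z1, z2, z3, z4, z5⟩ := hmem z hz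
        obtain ⟨w1, w2, w3, w4, w5⟩ := hmem z' hz'
        rw [Finset.mem_sdiff, Set.mem_toFinset] at hy hy'
        have hr := mul_mem_tor hsx z4 z5 w4 w5
        have hr1 : z * z' ≠ 1 := fun e => hzz (by
          have := eq_inv_of_mul_eq_one_left e
          rwa [inv_eq_of_mul_eq_one_right (mul_self_of_inv w1)] at this)
        have hyr : y * (z * z') = z * z' * y := by
          rw [← mul_assoc, hy.1.2.2, mul_assoc, hy'.1.2.2, mul_assoc]
        by_cases hro : orderOf (z * z') = 2
        · rw [eq_of_involution_mem_tor h2 htx hr hro] at hyr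
          exact hyc hyr
        · exact hyx (eq_of_involution_mem_tor h2 htx
            (mem_tor_of_comm h2 (not_isScal_of_ss hsx) hr hr1 hro hyr) hy.1.1)
      let W : Finset PSL(2, F) := {π gx} ∪ R ∪ R.biUnion T
      have hW : W.card = 1 + n + n * (n - 2) := by
        rw [Finset.card_union_of_disjoint, Finset.card_union_of_disjoint, Finset.card_singleton, hR,
          Finset.card_biUnion hdisj, Finset.sum_congr rfl hT, Finset.sum_const, hR, smul_eq_mul]
        · rw [Finset.disjoint_singleton_left]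
          exact fun h => (hmem _ h).2.1 rfl
        · rw [Finset.disjoint_left]
          intro y hy hy'
          obtain ⟨z, hz, hyT⟩ := Finset.mem_biUnion.1 hy'
          obtain ⟨h1, h3⟩ := hTnc z hz y hyT
          rcases Finset.mem_union.1 hy with h | h
          · exact h1 (Finset.mem_singleton.1 h)
          · exact h3 (hmem _ h).2.2.1
      rw [← hW]
      refine Finset.card_le_card fun y hy => ?_
      rcases Finset.mem_union.1 hy with h | h
      · rcases Finset.mem_union.1 h with h | h
        · rw [Finset.mem_singleton.1 h]; exact Finset.mem_filter.2 ⟨hx, rfl⟩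
        · exact Finset.mem_filter.2 ⟨Finset.mem_filter.2 ⟨Finset.mem_univ _, (hmem _ h).1⟩,
            hlink _ _ hxo (Set.mem_toFinset.1 h)⟩
      · obtain ⟨z, hz, hyT⟩ := Finset.mem_biUnion.1 h
        have hy' := Set.mem_toFinset.1 (Finset.mem_sdiff.1 hyT).1
        exact Finset.mem_filter.2 ⟨Finset.mem_filter.2 ⟨Finset.mem_univ _, hy'.1⟩,
          (hlink _ _ (hmem _ hz).1 hy').trans (hlink _ _ hxo (Set.mem_toFinset.1 hz))⟩
    set Im := Inv.image Φ
    have hIm : Im.card < 5 := by
      have hsum : Im.card * (1 + n + n * (n - 2)) ≤ I := by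
        rw [← hInv, Finset.card_eq_sum_card_fiberwise (f := Φ) (t := Im)
          (fun y hy => Finset.mem_image_of_mem _ hy), ← smul_eq_mul, ← Finset.sum_const]
        refine Finset.sum_le_sum fun b hb => ?_
        obtain ⟨x, hx, rfl⟩ := Finset.mem_image.1 hb
        exact hfib x hx
      by_contra hge
      have h5 := le_trans (Nat.mul_le_mul_right _ (not_lt.1 hge)) hsum
      exact count_absurd (n := n) (I := I) hn (by omega) h7 hodd
        (by rw [hIn, mul_comm, hGq]) h5
    have himg : ∀ (c : PSL(2, F)) (s : Set Ω), s ∈ Im → (fun p => c • p) '' s ∈ Im := by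
      intro c s hs
      obtain ⟨x, hx, rfl⟩ := Finset.mem_image.1 hs
      refine Finset.mem_image.2 ⟨c * x * c⁻¹, Finset.mem_filter.2 ⟨Finset.mem_univ _, ?_⟩, ?_⟩
      · exact (orderOf_injective (MulAut.conj c).toMonoidHom (MulAut.conj c).injective x).trans
          (Finset.mem_filter.1 hx).2
      · ext p
        simp only [Set.mem_image]
        constructor
        · intro hp
          exact ⟨c⁻¹ • p, by
            show x • c⁻¹ • p = c⁻¹ • p
            rw [eq_inv_smul_iff, ← mul_smul, ← mul_smul]; exact hp, smul_inv_smul c p⟩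
        · rintro ⟨r, hr, rfl⟩
          show (c * x * c⁻¹) • c • r = c • r
          rw [mul_smul, mul_smul, inv_smul_smul, show x • r = r from hr]
    let act : MulAction PSL(2, F) Im :=
      { smul := fun c s => ⟨(fun p => c • p) '' s.1, himg c s.1 s.2⟩
        one_smul := fun s => Subtype.ext (by show (fun p => (1 : PSL(2, F)) • p) '' s.1 = s.1; simp)
        mul_smul := fun a b s => Subtype.ext (by
          show (fun p => (a * b) • p) '' s.1 = (fun p => a • p) '' ((fun p => b • p) '' s.1)
          rw [Set.image_image]; simp [mul_smul]) }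
    rcases (MonoidHom.normal_ker (MulAction.toPermHom PSL(2, F) Im)).eq_bot_or_eq_top with e | e
    · have := Nat.card_le_card_of_injective _ ((MonoidHom.ker_eq_bot_iff _).1 e)
      rw [Nat.card_perm, Nat.card_eq_fintype_card (α := Im), Fintype.card_coe] at this
      have : Im.card.factorial ≤ (4 : ℕ).factorial := Nat.factorial_le (by omega)
      have : (4 : ℕ).factorial = 24 := rfl
      have h168 : 336 ≤ q * (q ^ 2 - 1) := le_trans (by norm_num) (Nat.mul_le_mul h7
        (Nat.sub_le_sub_right (Nat.pow_le_pow_left h7 2) 1))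
      omega
    · -- a fixed set invariant under the whole group
      set x := x₀
      have hxI : Φ x ∈ Im := Finset.mem_image_of_mem _ (Finset.mem_filter.2 ⟨Finset.mem_univ _, ho⟩)
      have hall : ∀ p : Ω, x • p = p := by
        intro p
        induction p using QuotientGroup.induction_on with
        | H c =>
          have hk : c ∈ (MulAction.toPermHom PSL(2, F) Im).ker := e ▸ Subgroup.mem_top c
          have h1 : (fun p => c • p) '' Φ x = Φ x :=
            congrArg Subtype.val (Equiv.Perm.ext_iff.1 (MonoidHom.mem_ker.1 hk) ⟨Φ x, hxI⟩)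
          have h0 : ((1 : PSL(2, F)) : Ω) ∈ Φ x := by
            show x • _ = _
            exact mem_stab_mk.2 (by rw [cj_one]; exact hx₀)
          have : c • ((1 : PSL(2, F)) : Ω) ∈ Φ x := h1 ▸ ⟨_, h0, rfl⟩
          rwa [MulAction.Quotient.smul_coe, smul_eq_mul, mul_one] at this
      rcases (MonoidHom.normal_ker (MulAction.toPermHom PSL(2, F) Ω)).eq_bot_or_eq_top with e' | e'
      · have hxk : x ∈ (MulAction.toPermHom PSL(2, F) Ω).ker :=
          MonoidHom.mem_ker.2 (Equiv.Perm.ext hall)
        rw [e', Subgroup.mem_bot] at hxk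
        rw [hxk, orderOf_one] at ho
        omega
      · refine hne (eq_top_iff.2 fun c _ => ?_)
        have hk : c ∈ (MulAction.toPermHom PSL(2, F) Ω).ker := e' ▸ Subgroup.mem_top c
        have := mem_stab_mk.1 (Equiv.Perm.ext_iff.1 (MonoidHom.mem_ker.1 hk) ((1 : PSL(2, F)) : Ω))
        rwa [cj_one] at this
  -- the four group
  have hg2 : g ^ 2 = 1 := (sq g).trans (mul_self_of_inv hgo)
  have hh2 : h ^ 2 = 1 := (sq h).trans (mul_self_of_inv hho)
  set V := H29.fourSubgroup g h hg2 hh2 hcomm.symm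
  have hgne : g ≠ 1 := fun e => by rw [e, orderOf_one] at hgo; omega
  have hhne : h ≠ 1 := fun e => by rw [e, orderOf_one] at hho; omega
  have hV : IsKleinFour V := H29.isKleinFour_fourSubgroup hgne hhne hhg.symm
  have hgV : g ∈ V := H29.mem_fourSubgroup.2 (Or.inr (Or.inl rfl))
  have hhV : h ∈ V := H29.mem_fourSubgroup.2 (Or.inr (Or.inr (Or.inl rfl)))
  have hghV : g * h ∈ V := mul_mem hgV hhV
  have hgh1 : g * h ≠ 1 := fun e => hhg (by
    have := eq_inv_of_mul_eq_one_left e
    rw [inv_eq_of_mul_eq_one_right (mul_self_of_inv hho)] at this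
    exact this.symm)
  -- points fixed by exactly one involution of the four group
  have hexcl : ∀ a ∈ V, a ≠ 1 → ∃ p : Ω, a • p = p ∧ ∀ v ∈ V, v • p = p → v = 1 ∨ v = a := by
    intro a ha ha1
    obtain ⟨c, hc, hca⟩ := normalizer_four_transitive h2 hq hV hgV ha hgne ha1
    refine ⟨c • pt, ?_, fun v hv hvp => ?_⟩
    · rw [← hca, mul_smul, mul_smul, inv_smul_smul, hgp]
    · have hmem : c⁻¹ * v * c ∈ V := by
        have := (Subgroup.mem_normalizer_iff.1 hc (c⁻¹ * v * c)).2
        exact this (by simpa [mul_assoc] using hv)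
      have hfix : (c⁻¹ * v * c) • pt = pt := by
        rw [mul_smul, mul_smul, hvp, inv_smul_smul]
      rcases H29.mem_fourSubgroup.1 hmem with e | e | e | e
      · left
        simpa [mul_assoc] using congrArg (fun w => c * w * c⁻¹) e
      · right
        rw [← hca, ← e]; simp [mul_assoc]
      · exact absurd (e ▸ hfix) hhp
      · rw [e, ← hcomm, mul_smul, hgp] at hfix
        exact absurd hfix hhp
  let P : Subgroup PSL(2, F) := ⨅ v ∈ {v : PSL(2, F) | v ∈ V ∧ v ≠ 1}, fixCl H v
  have hmemP : ∀ s, s ∈ P ↔ ∀ v ∈ V, v ≠ 1 → ∀ p : Ω, v • p = p → s • p = p := fun s => by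
    simp only [P, Subgroup.mem_iInf, Set.mem_setOf_eq, mem_fixCl, and_imp, Ω]
  have hPconj : ∀ c ∈ Subgroup.normalizer (V : Set PSL(2, F)), ∀ s ∈ P, c * s * c⁻¹ ∈ P := by
    intro c hc s hs
    rw [hmemP] at hs ⊢
    intro v hv hv1 p hp
    have hv' : c⁻¹ * v * c ∈ V :=
      (Subgroup.mem_normalizer_iff.1 hc (c⁻¹ * v * c)).2 (by simpa [mul_assoc] using hv)
    have := hs _ hv' (fun e => hv1 (by simpa [mul_assoc] using congrArg (fun w => c * w * c⁻¹) e))
      (c⁻¹ • p) (by rw [mul_smul, mul_smul, smul_inv_smul, hp])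
    rw [mul_smul, mul_smul, this, smul_inv_smul]
  have hPV : ∀ v ∈ V, v ∈ P → v = 1 := by
    intro v hv hvP
    by_contra hv1
    obtain ⟨a, ha, ha1, hav⟩ := H29.exists_mem_ne_ne (A := V) (by rw [hV.card_four]; norm_num) v
    obtain ⟨p, hp, hp'⟩ := hexcl a ha ha1
    exact (hp' v hv ((hmemP v).1 hvP a ha ha1 p hp)).elim hv1 (fun e => hav e.symm)
  have hVN : ∀ v ∈ V, v ∈ Subgroup.normalizer (V : Set PSL(2, F)) := fun v hv =>
    Subgroup.le_normalizer hv
  have hcV : ∀ s ∈ P, (∀ v ∈ V, v * s * v⁻¹ = s) → s = 1 := fun s hs hfix =>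
    hPV s (centralizer_four_le h2 hV (Subgroup.mem_centralizer_iff.2 fun v hv =>
      mul_inv_eq_iff_eq_mul.1 (hfix v hv))) hs
  have hPodd : Nat.card P % 2 = 1 := by
    let act : MulAction V P :=
      { smul := fun v s => ⟨v.1 * s.1 * v.1⁻¹, hPconj _ (hVN _ v.2) _ s.2⟩
        one_smul := fun s => Subtype.ext (by show (1 : PSL(2, F)) * s.1 * 1⁻¹ = s.1; simp)
        mul_smul := fun a b s => Subtype.ext (by
          show a.1 * b.1 * s.1 * (a.1 * b.1)⁻¹ = a.1 * (b.1 * s.1 * b.1⁻¹) * a.1⁻¹
          simp [mul_assoc]) }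
    have h2g : IsPGroup 2 V := IsPGroup.of_card (n := 2) (by rw [hV.card_four]; norm_num)
    have := Fact.mk Nat.prime_two
    have hmod := h2g.card_modEq_card_fixedPoints (α := P)
    have h1 : Nat.card (MulAction.fixedPoints V P) = 1 := by
      refine Nat.card_eq_one_iff_unique.2 ⟨⟨fun s t => ?_⟩, ⟨⟨1, fun v => Subtype.ext ?_⟩⟩⟩
      · have : ∀ u : MulAction.fixedPoints V P, u.1 = (1 : P) := fun u => Subtype.ext
          (hcV _ u.1.2 fun v hv => congrArg Subtype.val (u.2 ⟨v, hv⟩))
        exact Subtype.ext ((this s).trans (this t).symm)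
      · show v.1 * 1 * v.1⁻¹ = 1; simp
    rw [h1] at hmod
    exact hmod
  have hnot2 : ∀ s ∈ P, orderOf s ≠ 2 := fun s hs e => by
    have := Subgroup.orderOf_dvd_natCard _ hs
    rw [e] at this
    omega
  have hPbot : ∀ s ∈ P, s = 1 := by
    by_cases hfree : ∃ a ∈ V, a ≠ 1 ∧ ∀ s ∈ P, a * s = s * a → s = 1
    · obtain ⟨a, ha, ha1, haf⟩ := hfree
      have hall : ∀ b ∈ V, b ≠ 1 → ∀ s ∈ P, b * s * b⁻¹ = s⁻¹ := by
        intro b hb' hb1
        obtain ⟨c, hc, hcb⟩ := normalizer_four_transitive h2 hq hV hb' ha hb1 ha1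
        have hbf : ∀ s ∈ P, b * s = s * b → s = 1 := fun s hs e => by
          have := haf _ (hPconj c hc s hs) (by
            rw [← hcb]
            simpa [mul_assoc] using congrArg (fun w => c * w * c⁻¹) e)
          simpa [mul_assoc] using congrArg (fun w => c⁻¹ * w * c) this
        let φ : P →* P :=
          { toFun := fun s => ⟨b * s.1 * b⁻¹, hPconj _ (hVN _ hb') _ s.2⟩
            map_one' := Subtype.ext (by simp)
            map_mul' := fun s t => Subtype.ext (by simp [mul_assoc]) }
        have hfpf : MonoidHom.FixedPointFree φ := fun s hs => Subtype.ext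
          (hbf _ s.2 (mul_inv_eq_iff_eq_mul.1 (congrArg Subtype.val hs)))
        have hbb : b * b = 1 := by
          rw [← sq]; exact H29.sq_eq_one_of_mem_kleinFour hb'
        have hinvol : Function.Involutive φ := fun s => Subtype.ext (by
          show b * (b * s.1 * b⁻¹) * b⁻¹ = s.1
          rw [inv_eq_of_mul_eq_one_right hbb]
          calc b * (b * s.1 * b) * b = (b * b) * s.1 * (b * b) := by simp [mul_assoc]
            _ = s.1 := by rw [hbb, one_mul, mul_one])
        intro s hs
        exact congrArg Subtype.val (congrFun (hfpf.coe_eq_inv_of_involutive hinvol) ⟨s, hs⟩)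
      intro s hs
      refine haf s hs (mul_inv_eq_iff_eq_mul.1 ?_)
      obtain ⟨b, hb', hb1, hba⟩ := H29.exists_mem_ne_ne (A := V) (by rw [hV.card_four]; norm_num) a
      have hba' : b * a ≠ 1 := fun e => hba (by
        have := eq_inv_of_mul_eq_one_left e
        rwa [inv_eq_of_mul_eq_one_right (show a * a = 1 by
          rw [← sq]; exact H29.sq_eq_one_of_mem_kleinFour ha)] at this)
      have h1 := hall (b * a) (mul_mem hb' ha) hba' s hs
      rw [_root_.mul_inv_rev, show b * a * s * (a⁻¹ * b⁻¹) = b * (a * s * a⁻¹) * b⁻¹ by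
        simp [mul_assoc], hall a ha ha1 s hs] at h1
      have h3 := hall b hb' hb1 s⁻¹ (inv_mem hs)
      rw [h1, inv_inv] at h3
      rw [hall a ha ha1 s hs, h3]
    · push Not at hfree
      exfalso
      obtain ⟨r, hr, hrg, hr1⟩ := hfree g hgV hgne
      obtain ⟨s, hs, hsh, hs1⟩ := hfree h hhV hhne
      obtain ⟨gs, hgs⟩ := π_surjective g
      obtain ⟨hs', hhs⟩ := π_surjective h
      have htg := (orderOf_π_eq_two_iff h2).1 (hgs.symm ▸ hgo)
      have hth := (orderOf_π_eq_two_iff h2).1 (hhs.symm ▸ hho)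
      have hin : ∀ {u : PSL(2, F)} {w : SL(2, F)}, tr w = 0 → u ∈ P → π w * u = u * π w →
          u ∈ tor w := fun {u w} hw hu hc => by
        by_contra hn
        obtain ⟨e1, e2, -⟩ := outside_torDih (ss_of_tr_zero h2 hw)
          ((mem_centralizer_involution h2 hw).1 hc.symm) hn
        exact hnot2 u hu (orderOf_eq_prime (by rw [sq, e1]) e2)
      have hrt : r ∈ tor gs := hin htg hr (by rw [hgs]; exact hrg)
      have hst : s ∈ tor hs' := hin hth hs (by rw [hhs]; exact hsh)
      have hnc : r * s ≠ s * r := fun hc => by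
        have hsg := mem_tor_of_comm h2 (not_isScal_of_ss (ss_of_tr_zero h2 htg)) hrt hr1
          (hnot2 r hr) hc.symm
        obtain ⟨sw, rfl⟩ := π_surjective s
        have : tor hs' = tor gs := by
          rw [← tor_eq_of_mem (not_isScal_of_ss (ss_of_tr_zero h2 hth)) hst hs1,
            tor_eq_of_mem (not_isScal_of_ss (ss_of_tr_zero h2 htg)) hsg hs1]
        exact hhg (hgs ▸ eq_of_involution_mem_tor h2 htg (this ▸ hhs ▸ self_mem_tor hs') hho)
      obtain ⟨c, hc⟩ := exists_outcome p P
      have hcard : Nat.card (cj c P) % 2 = 1 := by rw [card_cj]; exact hPodd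
      have hev : ∀ N, Nat.card (cj c P) = N → N % 2 = 0 → False := fun N e he => by
        rw [e] at hcard; omega
      cases hc with
      | triv h =>
        rw [card_cj] at h
        exact hr1 (Subgroup.mem_bot.1 (Subgroup.card_eq_one.1 h ▸ hr))
      | dih h =>
        obtain ⟨w, hw, hle⟩ := h
        have hle' : ∀ u ∈ P, c * u * c⁻¹ ∈ tor w := fun u hu => by
          by_contra hn
          obtain ⟨e1, e2, -⟩ := outside_torDih hw
            (hle ⟨u, hu, rfl⟩ : c * u * c⁻¹ ∈ torDih w) hn
          refine hnot2 u hu ?_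
          rw [← orderOf_injective (MulAut.conj c).toMonoidHom (MulAut.conj c).injective u]
          exact orderOf_eq_prime (by rw [sq]; exact e1) e2
        have := tor_cyclic hw
        refine hnc ?_
        have h1 : (⟨_, hle' r hr⟩ : tor w) * ⟨_, hle' s hs⟩ = ⟨_, hle' s hs⟩ * ⟨_, hle' r hr⟩ :=
          IsCyclic.commGroup.mul_comm _ _
        simpa [mul_assoc] using congrArg (fun u : tor w => c⁻¹ * u.1 * c) h1
      | bor h =>
        obtain ⟨d, hd⟩ := h
        rw [cj_cj] at hd
        set D := d * c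
        have hB : ∀ u ∈ P, D * u * D⁻¹ ∈ borel F := fun u hu => hd ⟨u, hu, rfl⟩
        set u := r * s * r⁻¹ * s⁻¹
        have huP : u ∈ P := mul_mem (mul_mem (mul_mem hr hs) (inv_mem hr)) (inv_mem hs)
        have hu1 : u ≠ 1 := fun e => hnc (by
          rwa [mul_inv_eq_one, mul_inv_eq_iff_eq_mul] at e)
        have huU : D * u * D⁻¹ ∈ Uinf F := by
          rw [← chiB_eq_one_iff ⟨_, hB u huP⟩]
          have : (⟨_, hB u huP⟩ : borel F) =
              ⟨_, hB r hr⟩ * ⟨_, hB s hs⟩ * (⟨_, hB r hr⟩ : borel F)⁻¹ * (⟨_, hB s hs⟩ : borel F)⁻¹ :=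
            Subtype.ext (by simp [u, mul_assoc])
          rw [this, map_mul, map_mul, map_mul, map_inv, map_inv]
          rw [mul_comm (chiB _) (chiB _), mul_inv_cancel_right, mul_inv_cancel]
        have hVB : ∀ v ∈ V, D * v * D⁻¹ ∈ borel F := by
          intro v hv
          set x := D * u * D⁻¹
          set y := D * (v * u * v⁻¹) * D⁻¹
          have hyB : y ∈ borel F := hB _ (hPconj v (hVN v hv) u huP)
          have hx1 : x ≠ 1 := fun e => hu1 (conj_eq_one_iff.1 e)
          have hyx : y = (D * v * D⁻¹) * x * (D * v * D⁻¹)⁻¹ := by simp [x, y, mul_assoc]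
          have hy1 : y ≠ 1 := fun e => hu1 (conj_eq_one_iff.1 (conj_eq_one_iff.1 e))
          have hyU : y ∈ Uinf F := by
            by_contra hn
            have h1 : IsSS y := isSS_of_chiB (x := ⟨y, hyB⟩) fun e => hn ((chiB_eq_one_iff _).1 e)
            have h3 := isSS_conj (c := (D * v * D⁻¹)⁻¹) h1
            rw [hyx] at h3
            simp only [_root_.mul_inv_rev, inv_inv, mul_assoc, inv_mul_cancel_left, mul_inv_cancel_left, mul_inv_cancel, inv_mul_cancel, mul_one] at h3
            exact not_isSS_of_mem_isUni isUni_Uinf huU h3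
          have hmx : ∀ z ∈ Uinf F, z ≠ 1 → mx z = Uinf F := fun z hz hz1 => by
            obtain ⟨a, rfl⟩ := mem_Uinf.1 hz
            rw [mx_π, tor_up (fun e => hz1 (by rw [e, up_zero, map_one]))]
          have hm := mx_conj (D * v * D⁻¹) x
          rw [← hyx, hmx y hyU hy1, hmx x huU hx1] at hm
          rw [← normalizer_Uinf, ← cj_eq_iff_mem_normalizer]
          exact hm.symm
        have hpm : ∀ v (hv : v ∈ V), v ≠ 1 → chiB ⟨_, hVB v hv⟩ ≠ 1 ∧ (chiB ⟨_, hVB v hv⟩) ^ 2 = 1 := by
          intro v hv hv1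
          refine ⟨fun e => ?_, ?_⟩
          · have hU := (chiB_eq_one_iff _).1 e
            have hdv := Subgroup.orderOf_dvd_natCard _ hU
            have hov : orderOf v = 2 := orderOf_eq_prime (H29.sq_eq_one_of_mem_kleinFour hv) hv1
            rw [show orderOf (D * v * D⁻¹) = orderOf v from
              orderOf_injective (MulAut.conj D).toMonoidHom (MulAut.conj D).injective v, hov,
              card_Uinf, hq] at hdv
            omega
          · rw [← map_pow, show (⟨_, hVB v hv⟩ : borel F) ^ 2 = 1 from Subtype.ext (by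
              rw [Subgroup.coe_pow, conj_pow, H29.sq_eq_one_of_mem_kleinFour hv]; simp), map_one]
        have hneg : ∀ v ∈ V, v ≠ 1 → ∀ hvB : D * v * D⁻¹ ∈ borel F,
            ((chiB ⟨_, hvB⟩ : Fˣ) : F) = -1 := by
          intro v hv hv1 hv'
          obtain ⟨a, b⟩ := hpm v hv hv1
          have b' : ((chiB ⟨_, hv'⟩ : Fˣ) : F) ^ 2 = 1 := by rw [← Units.val_pow_eq_pow_val, b]; simp
          exact (sq_eq_one_iff.1 b').resolve_left fun e => a (Units.ext e)
        have e3 : (⟨_, hVB _ hghV⟩ : borel F) = ⟨_, hVB g hgV⟩ * ⟨_, hVB h hhV⟩ :=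
          Subtype.ext (by simp [mul_assoc])
        have := hneg _ hghV hgh1 (hVB _ hghV)
        rw [e3, map_mul, Units.val_mul, hneg g hgV hgne, hneg h hhV hhne] at this
        exact h2 (by linear_combination this)
      | a4 h _ => exact hev 12 h rfl
      | s4 h _ _ => exact hev 24 h rfl
      | a5 h _ _ => exact hev 60 h rfl
      | gen h =>
        obtain ⟨r', k', -, hr', -, -, -, hcd, -⟩ := h
        have : r' ∣ q := by
          rw [← hr', ← hq, ← card_Uinf (F := F)]
          exact Subgroup.card_dvd_of_le inf_le_left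
        refine hev _ hcd ?_
        have ho' : r' % 2 = 1 := by
          rcases Nat.mod_two_eq_zero_or_one r' with e | e
          · have := (Nat.dvd_of_mod_eq_zero e).trans this; omega
          · exact e
        rw [Nat.mul_mod, show (r' + 1) % 2 = 0 by omega, zero_mul, Nat.zero_mod]
  -- the element given by binarity
  obtain ⟨k, hk⟩ := hb.pair (g := g) (h := h) (mul_self_of_inv hgo) hcomm.symm
  have hkV : k ∈ V := by
    refine centralizer_four_le h2 hV (Subgroup.mem_centralizer_iff.2 fun v hv => ?_)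
    have hcomm' : ∀ w ∈ V, v * w = w * v := fun w hw => H29.comm_of_mem_kleinFour hv hw
    refine inv_mul_eq_one.1 (hPbot _ ((hmemP ((v * k)⁻¹ * (k * v))).2 fun w hw hw1 p hp => ?_))
    rw [mul_smul, inv_smul_eq_iff, mul_smul, mul_smul]
    have hwv : w • v • p = v • p := by rw [← mul_smul, ← hcomm' w hw, mul_smul, hp]
    rcases H29.mem_fourSubgroup.1 hw with rfl | rfl | rfl | rfl
    · exact absurd rfl hw1
    · rw [(hk p).1 hp, (hk _).1 hwv, ← mul_smul, ← mul_smul, hcomm' h hhV]
    · rw [(hk p).2.1 hp, (hk _).2.1 hwv, ← mul_smul, ← mul_smul, hcomm' g hgV]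
    · rw [(hk p).2.2 hp, (hk _).2.2 hwv, ← mul_smul, ← mul_smul, hcomm' g hgV]
  obtain ⟨p1, e1, f1⟩ := hexcl g hgV hgne
  obtain ⟨p2, e2, f2⟩ := hexcl h hhV hhne
  obtain ⟨p3, e3, f3⟩ := hexcl (g * h) hghV hgh1
  rcases H29.mem_fourSubgroup.1 hkV with rfl | rfl | rfl | rfl
  · have := (hk p1).1 e1
    rw [one_smul] at this
    exact (f1 h hhV this.symm).elim hhne hhg
  · have := (hk p1).1 e1
    rw [e1] at this
    exact (f1 h hhV this.symm).elim hhne hhg
  · have := (hk p2).2.1 e2
    rw [e2] at this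
    exact (f2 g hgV this.symm).elim hgne (Ne.symm hhg)
  · have := (hk p3).2.2 e3
    rw [e3] at this
    exact (f3 g hgV this.symm).elim hgne fun e => hhne (mul_left_cancel (e.symm.trans (mul_one g).symm))

end Cfsg.Agent.H6.Bin
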