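import Cfsg.Agent.H6.Partition

/-!
# Binary coset actions: general tools
-/

set_option autoImplicit false

open MulAction

namespace Cfsg.Agent.H6.Bin

variable {G : Type*} [Group G]

/-- The coset action on `H` is binary. -/
def IsBin (H : Subgroup G) : Prop :=
  ∀ (n : ℕ) (I J : Fin n → G ⧸ H), 2 ≤ n →
    (∀ i j : Fin n, i ≠ j → ∃ g : G, g • I i = J i ∧ g • I j = J j) →
      ∃ g : G, ∀ i, g • I i = J i

lemma mem_stab_mk {H : Subgroup G} {a x : G} :
    x • ((a : G) : G ⧸ H) = (a : G ⧸ H) ↔ x ∈ cj a H := by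
  rw [MulAction.Quotient.smul_coe, QuotientGroup.eq, smul_eq_mul, mem_cj, ← H.inv_mem_iff]
  simp [mul_assoc]

/-- The triple test. -/
lemma IsBin.triple {H : Subgroup G} (hb : IsBin H) {a b c x y z : G} (hx : x ∈ cj a H)
    (hy : y ∈ cj b H) (hz : z ∈ cj c H) (he : x = y * z) :
    ∃ u ∈ cj a H ⊓ cj b H, ∃ v ∈ cj a H ⊓ cj c H, x = u * v := by
  rw [← mem_stab_mk] at hx hy hz
  have hyc : y • ((c : G) : G ⧸ H) = x • (c : G ⧸ H) := by rw [he, mul_smul, hz]
  obtain ⟨g, hg⟩ := hb 3 ![(a : G ⧸ H), (b : G ⧸ H), (c : G ⧸ H)]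
    ![(a : G ⧸ H), (b : G ⧸ H), x • (c : G ⧸ H)] (by norm_num) (by
      intro i j hij
      fin_cases i <;> fin_cases j
      all_goals first
        | exact absurd rfl hij
        | exact ⟨1, one_smul _ _, one_smul _ _⟩
        | exact ⟨x, hx, rfl⟩
        | exact ⟨x, rfl, hx⟩
        | exact ⟨y, hy, hyc⟩
        | exact ⟨y, hyc, hy⟩)
  have h0 : g • ((a : G) : G ⧸ H) = (a : G ⧸ H) := hg 0
  have h1 : g • ((b : G) : G ⧸ H) = (b : G ⧸ H) := hg 1
  have h2 : g • ((c : G) : G ⧸ H) = x • (c : G ⧸ H) := hg 2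
  refine ⟨g, ⟨mem_stab_mk.1 h0, mem_stab_mk.1 h1⟩, g⁻¹ * x,
    ⟨mem_stab_mk.1 ?_, mem_stab_mk.1 ?_⟩, (mul_inv_cancel_left g x).symm⟩
  · rw [mul_smul, hx, inv_smul_eq_iff, h0]
  · rw [mul_smul, ← h2, inv_smul_smul]

/-- A partial map that is pairwise given by group elements is given by one. -/
lemma IsBin.extend {H : Subgroup G} [Finite (G ⧸ H)] (hb : IsBin H) (Δ : Set (G ⧸ H))
    (f : G ⧸ H → G ⧸ H)
    (hp : ∀ p ∈ Δ, ∀ q ∈ Δ, ∃ g : G, g • p = f p ∧ g • q = f q) :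
    ∃ k : G, ∀ p ∈ Δ, k • p = f p := by
  classical
  rcases Δ.eq_empty_or_nonempty with h | ⟨p₀, hp₀⟩
  · exact ⟨1, fun p hq => absurd (h ▸ hq) (Set.notMem_empty p)⟩
  have := Fintype.ofFinite Δ
  let e := Fintype.equivFin Δ
  let I : Fin (Fintype.card Δ + 2) → G ⧸ H := fun i =>
    if h : i.1 < Fintype.card Δ then (e.symm ⟨i, h⟩).1 else p₀
  have hI : ∀ i, I i ∈ Δ := fun i => by
    simp only [I]; split_ifs
    · exact (e.symm _).2
    · exact hp₀
  obtain ⟨k, hk⟩ := hb _ I (f ∘ I) (by omega) fun i j _ => hp _ (hI i) _ (hI j)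
  refine ⟨k, fun p hq => ?_⟩
  have h := hk ⟨e ⟨p, hq⟩, lt_of_lt_of_le (e ⟨p, hq⟩).2 (by omega)⟩
  have hIp : I ⟨e ⟨p, hq⟩, lt_of_lt_of_le (e ⟨p, hq⟩).2 (by omega)⟩ = p := by
    simp only [I, dif_pos (e ⟨p, hq⟩).2, Fin.eta, Equiv.symm_apply_apply]
  rw [Function.comp_apply, hIp] at h
  exact h

/-- The elements fixing every point that is fixed by `x`. -/
def fixCl (H : Subgroup G) (x : G) : Subgroup G :=
  ⨅ p ∈ {p : G ⧸ H | x • p = p}, stabilizer G p

lemma mem_fixCl {H : Subgroup G} {x s : G} :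
    s ∈ fixCl H x ↔ ∀ p : G ⧸ H, x • p = p → s • p = p := by
  simp [fixCl, Subgroup.mem_iInf]

/-- The test on two commuting involutions. -/
lemma IsBin.pair {H : Subgroup G} [Finite (G ⧸ H)] (hb : IsBin H) {g h : G} (hg : g * g = 1)
    (hgh : g * h = h * g) :
    ∃ k : G, ∀ p : G ⧸ H, (g • p = p → k • p = h • p) ∧ (h • p = p → k • p = g • p) ∧
      ((g * h) • p = p → k • p = g • p) := by
  classical
  set Δ : Set (G ⧸ H) := {p | g • p = p ∨ h • p = p ∨ (g * h) • p = p}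
  set f : G ⧸ H → G ⧸ H := fun p => if g • p = p then h • p else g • p
  have hghh : ∀ {p : G ⧸ H}, (g * h) • p = p → h • p = g • p := fun {p} e => by
    conv_rhs => rw [← e, ← mul_smul, ← mul_assoc, hg, one_mul]
  have hfg : ∀ {p : G ⧸ H}, g • p = p → f p = h • p := fun {p} e => if_pos e
  have hfh : ∀ {p : G ⧸ H}, h • p = p → f p = g • p := fun {p} e => by
    simp only [f]; split_ifs with c
    · rw [e, c]
    · rfl
  have hfgh : ∀ {p : G ⧸ H}, (g * h) • p = p → f p = g • p := fun {p} e => by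
    simp only [f]; split_ifs
    · exact hghh e
    · rfl
  have hA : ∀ {p : G ⧸ H}, g • p = p → (g * h) • p = f p := fun {p} e => by
    rw [hgh, mul_smul, e, hfg e]
  have hA' : ∀ {p : G ⧸ H}, h • p = p → (g * h) • p = f p := fun {p} e => by
    rw [mul_smul, e, hfh e]
  have hC : ∀ {p : G ⧸ H}, (g * h) • p = p → h • p = f p := fun {p} e => by
    rw [hghh e, hfgh e]
  obtain ⟨k, hk⟩ := hb.extend Δ f fun p hp q hq => by
    rcases hp with a | a | a <;> rcases hq with b | b | b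
    · exact ⟨g * h, hA a, hA b⟩
    · exact ⟨g * h, hA a, hA' b⟩
    · exact ⟨h, (hfg a).symm, hC b⟩
    · exact ⟨g * h, hA' a, hA b⟩
    · exact ⟨g * h, hA' a, hA' b⟩
    · exact ⟨g, (hfh a).symm, (hfgh b).symm⟩
    · exact ⟨h, hC a, (hfg b).symm⟩
    · exact ⟨g, (hfgh a).symm, (hfh b).symm⟩
    · exact ⟨g, (hfgh a).symm, (hfgh b).symm⟩
  exact ⟨k, fun p => ⟨fun e => (hk p (Or.inl e)).trans (hfg e),
    fun e => (hk p (Or.inr (Or.inl e))).trans (hfh e),
    fun e => (hk p (Or.inr (Or.inr e))).trans (hfgh e)⟩⟩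

/-- Four points, the last one moved. -/
lemma IsBin.four {H : Subgroup G} (hb : IsBin H) {p₀ p₁ p₂ p q : G ⧸ H} {x y z : G}
    (hx₀ : x • p₀ = p₀) (hx : x • p = q) (hy₁ : y • p₁ = p₁) (hy : y • p = q)
    (hz₂ : z • p₂ = p₂) (hz : z • p = q) :
    ∃ g : G, g • p₀ = p₀ ∧ g • p₁ = p₁ ∧ g • p₂ = p₂ ∧ g • p = q := by
  obtain ⟨g, hg⟩ := hb 4 ![p₀, p₁, p₂, p] ![p₀, p₁, p₂, q] (by norm_num) (by
    intro i j hij
    fin_cases i <;> fin_cases j
    all_goals first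
      | exact absurd rfl hij
      | exact ⟨1, one_smul _ _, one_smul _ _⟩
      | exact ⟨x, hx₀, hx⟩
      | exact ⟨x, hx, hx₀⟩
      | exact ⟨y, hy₁, hy⟩
      | exact ⟨y, hy, hy₁⟩
      | exact ⟨z, hz₂, hz⟩
      | exact ⟨z, hz, hz₂⟩)
  exact ⟨g, hg 0, hg 1, hg 2, hg 3⟩

/-- A regular action is binary. -/
lemma isBin_bot : IsBin (⊥ : Subgroup G) := by
  intro n I J hn hp
  have inj : ∀ {a b : G} {p : G ⧸ (⊥ : Subgroup G)}, a • p = b • p → a = b := by
    intro a b p e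
    induction p using QuotientGroup.induction_on with
    | H c =>
      rw [MulAction.Quotient.smul_coe, MulAction.Quotient.smul_coe, QuotientGroup.eq,
        Subgroup.mem_bot, smul_eq_mul, smul_eq_mul, inv_mul_eq_one] at e
      exact mul_right_cancel e
  let i₀ : Fin n := ⟨0, by omega⟩
  obtain ⟨g, hg0, hg1⟩ := hp i₀ ⟨1, by omega⟩ (by simp [i₀, Fin.ext_iff])
  refine ⟨g, fun i => ?_⟩
  by_cases hi : i = i₀
  · rw [hi, hg0]
  · obtain ⟨g', h0, h1⟩ := hp i₀ i (Ne.symm hi)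
    rw [inj (hg0.trans h0.symm), h1]

/-- A binary criterion: trivial intersections and no triangles. -/
lemma isBin_of_TI {H : Subgroup G}
    (hTI : ∀ a : G, cj a H ≠ H → ∀ x ∈ H, x ∈ cj a H → x = 1)
    (htri : ∀ b c x y z : G, x ∈ H → y ∈ cj b H → z ∈ cj c H → x = y * z → cj b H ≠ H →
      cj c H ≠ H → cj b H ≠ cj c H → x = 1) : IsBin H := by
  intro n I J hn hp
  let i₀ : Fin n := ⟨0, by omega⟩
  obtain ⟨a₀, ha₀⟩ := Quotient.exists_rep (I i₀)
  obtain ⟨c₀, hc₀⟩ := Quotient.exists_rep (J i₀)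
  set o : G ⧸ H := ((1 : G) : G ⧸ H)
  have hIo : a₀⁻¹ • I i₀ = o := by
    rw [← ha₀]; show a₀⁻¹ • ((a₀ : G) : G ⧸ H) = o
    rw [MulAction.Quotient.smul_coe, smul_eq_mul, inv_mul_cancel]
  have hJo : c₀⁻¹ • J i₀ = o := by
    rw [← hc₀]; show c₀⁻¹ • ((c₀ : G) : G ⧸ H) = o
    rw [MulAction.Quotient.smul_coe, smul_eq_mul, inv_mul_cancel]
  set I' : Fin n → G ⧸ H := fun i => a₀⁻¹ • I i with hI'
  set J' : Fin n → G ⧸ H := fun i => c₀⁻¹ • J i with hJ'
  have hpair : ∀ i j : Fin n, ∃ g : G, g • I' i = J' i ∧ g • I' j = J' j := by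
    intro i j
    rcases eq_or_ne i j with rfl | hij
    · have : ∃ g : G, g • I i = J i := by
        obtain ⟨k, hk⟩ := exists_ne_of_fin i hn
        obtain ⟨g, h, -⟩ := hp i k hk.symm
        exact ⟨g, h⟩
      obtain ⟨g, h⟩ := this
      exact ⟨c₀⁻¹ * g * a₀, by simp [hI', hJ', mul_smul, h], by simp [hI', hJ', mul_smul, h]⟩
    · obtain ⟨g, h1, h2⟩ := hp i j hij
      exact ⟨c₀⁻¹ * g * a₀, by simp [hI', hJ', mul_smul, h1], by simp [hI', hJ', mul_smul, h2]⟩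
  suffices h : ∃ g : G, ∀ i, g • I' i = J' i by
    obtain ⟨g, hg⟩ := h
    refine ⟨c₀ * g * a₀⁻¹, fun i => ?_⟩
    rw [mul_smul, mul_smul, show a₀⁻¹ • I i = I' i from rfl, hg i]
    simp [hJ']
  have hfix : ∀ x : G, x • o = o ↔ x ∈ H := fun x => by rw [mem_stab_mk, cj_one]
  have hh : ∀ i, ∃ g ∈ H, g • I' i = J' i := fun i => by
    obtain ⟨g, h0, h1⟩ := hpair i₀ i
    exact ⟨g, (hfix g).1 (by rwa [show I' i₀ = o from hIo, show J' i₀ = o from hJo] at h0), h1⟩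
  choose hs hsH hsI using hh
  choose a ha using fun i => Quotient.exists_rep (I' i)
  have haI : ∀ i (x : G), x • I' i = I' i ↔ x ∈ cj (a i) H := fun i x => by
    rw [← ha i]; exact mem_stab_mk
  by_cases hall : ∀ i, cj (a i) H = H
  · refine ⟨hs i₀, fun i => ?_⟩
    rw [← hsI i]
    have : (hs i)⁻¹ * hs i₀ ∈ cj (a i) H := by
      rw [hall i]; exact mul_mem (inv_mem (hsH i)) (hsH i₀)
    rw [← haI, mul_smul, inv_smul_eq_iff] at this
    exact this
  push Not at hall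
  obtain ⟨i, hi⟩ := hall
  refine ⟨hs i, fun j => ?_⟩
  rw [← hsI j]
  set x := (hs i)⁻¹ * hs j with hx
  have hxH : x ∈ H := mul_mem (inv_mem (hsH i)) (hsH j)
  suffices hxj : x ∈ cj (a j) H by
    rw [← haI, hx, mul_smul, inv_smul_eq_iff] at hxj
    exact hxj.symm
  by_cases hj : cj (a j) H = H
  · rw [hj]; exact hxH
  suffices x = 1 by rw [this]; exact one_mem _
  obtain ⟨y, hyi, hyj⟩ := hpair i j
  have h1 : (hs i)⁻¹ * y ∈ cj (a i) H := by
    rw [← haI, mul_smul, hyi, ← hsI i, inv_smul_smul]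
  have h2 : y⁻¹ * hs j ∈ cj (a j) H := by
    rw [← haI, mul_smul, hsI j, ← hyj, inv_smul_smul]
  have hxe : x = ((hs i)⁻¹ * y) * (y⁻¹ * hs j) := by rw [hx]; group
  by_cases hij : cj (a i) H = cj (a j) H
  · exact hTI (a i) hi x hxH (hxe ▸ mul_mem h1 (hij ▸ h2))
  · exact htri (a i) (a j) x _ _ hxH h1 h2 hxe hi hj hij
where
  exists_ne_of_fin {n : ℕ} (i : Fin n) (hn : 2 ≤ n) : ∃ k : Fin n, k ≠ i :=
    haveI : Nontrivial (Fin n) := Fin.nontrivial_iff_two_le.2 hn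
    exists_ne i

/-- Binarity only depends on the conjugacy class. -/
lemma IsBin.cj_bin {H : Subgroup G} (hb : IsBin H) (c : G) : IsBin (cj c H) := by
  intro n I J hn hp
  let f : G ⧸ cj c H → G ⧸ H := fun p => Quotient.liftOn' p (fun a => ((a * c : G) : G ⧸ H))
    fun a b hab => by
      rw [QuotientGroup.leftRel_apply, mem_cj] at hab
      refine QuotientGroup.eq.2 ?_
      simpa [mul_assoc] using hab
  have hf : ∀ (g : G) p, f (g • p) = g • f p := fun g p => by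
    induction p using QuotientGroup.induction_on with
    | H a =>
      show ((g * a * c : G) : G ⧸ H) = g • ((a * c : G) : G ⧸ H)
      rw [MulAction.Quotient.smul_coe, smul_eq_mul, mul_assoc]
  have hinj : Function.Injective f := fun p q e => by
    induction p using QuotientGroup.induction_on with
    | H a => induction q using QuotientGroup.induction_on with
      | H b =>
        have e' : (a * c)⁻¹ * (b * c) ∈ H := QuotientGroup.eq.1 e
        refine QuotientGroup.eq.2 (mem_cj.2 ?_)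
        simpa [mul_assoc] using e'
  obtain ⟨g, hg⟩ := hb n (f ∘ I) (f ∘ J) hn fun i j hij => by
    obtain ⟨g, h1, h2⟩ := hp i j hij
    exact ⟨g, by simp [← hf, h1], by simp [← hf, h2]⟩
  exact ⟨g, fun i => hinj (by rw [hf]; exact hg i)⟩

end Cfsg.Agent.H6.Bin
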